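import Mathlib

set_option autoImplicit false
set_option linter.unusedSectionVars false

/-!
# Jordan sets of a finite permutation group (elementary form)

Definitions and basic lemmas for the proof of Marggraf's theorem (S3620):
a primitive group with a Jordan set of size `m`, `1 < m < n / 2`, contains the alternating group.
-/

namespace Cfsg.Agent.Helper32.Jor

open Equiv

variable {Ω : Type*} [Fintype Ω] [DecidableEq Ω]

/-- `J` is a Jordan set of the permutation group `G`: the elements of `G` fixing every point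
outside `J` act transitively on `J`. -/
def IsJ (G : Subgroup (Perm Ω)) (J : Finset Ω) : Prop :=
  ∀ a ∈ J, ∀ b ∈ J, ∃ g ∈ G, g a = b ∧ ∀ x, x ∉ J → g x = x

/-- `T` is a Jordan complement: the pointwise stabiliser of `T` in `G` is transitive on the
points outside `T`. -/
def JC (G : Subgroup (Perm Ω)) (T : Finset Ω) : Prop := IsJ G Tᶜ

/-- The image of a finset under a permutation. -/
abbrev mv (g : Perm Ω) (J : Finset Ω) : Finset Ω := J.map g.toEmbedding

/-- Relative double transitivity: the pointwise stabiliser of `T` is 2-transitive off `T`. -/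
def Rel2 (G : Subgroup (Perm Ω)) (T : Finset Ω) : Prop :=
  ∀ a b a' b' : Ω, a ∉ T → b ∉ T → a' ∉ T → b' ∉ T → a ≠ b → a' ≠ b' →
    ∃ g ∈ G, (∀ x ∈ T, g x = x) ∧ g a = a' ∧ g b = b'

theorem mem_mv {g : Perm Ω} {J : Finset Ω} {x : Ω} : x ∈ mv g J ↔ g.symm x ∈ J :=
  Finset.mem_map_equiv

theorem apply_mem_mv {g : Perm Ω} {J : Finset Ω} {x : Ω} : g x ∈ mv g J ↔ x ∈ J := by
  rw [mem_mv, Equiv.symm_apply_apply]

theorem card_mv (g : Perm Ω) (J : Finset Ω) : (mv g J).card = J.card :=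
  Finset.card_map _

theorem mv_one (J : Finset Ω) : mv (1 : Perm Ω) J = J := by
  ext x; rw [mem_mv]; exact Iff.rfl

theorem mv_mul (g h : Perm Ω) (J : Finset Ω) : mv (g * h) J = mv g (mv h J) := by
  ext x; rw [mem_mv, mem_mv, mem_mv]; exact Iff.rfl

theorem mv_inv_mv (g : Perm Ω) (J : Finset Ω) : mv g⁻¹ (mv g J) = J := by
  rw [← mv_mul, inv_mul_cancel, mv_one]

theorem mv_mv_inv (g : Perm Ω) (J : Finset Ω) : mv g (mv g⁻¹ J) = J := by
  rw [← mv_mul, mul_inv_cancel, mv_one]

theorem mv_subset_mv {g : Perm Ω} {J K : Finset Ω} : mv g J ⊆ mv g K ↔ J ⊆ K :=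
  Finset.map_subset_map

theorem mv_union (g : Perm Ω) (J K : Finset Ω) : mv g (J ∪ K) = mv g J ∪ mv g K :=
  Finset.map_union _ _

theorem mv_compl (g : Perm Ω) (J : Finset Ω) : mv g Jᶜ = (mv g J)ᶜ := by
  ext x; rw [mem_mv, Finset.mem_compl, Finset.mem_compl, mem_mv]

theorem mv_insert (g : Perm Ω) (a : Ω) (J : Finset Ω) : mv g (insert a J) = insert (g a) (mv g J) := by
  ext x
  simp only [mem_mv, Finset.mem_insert]
  constructor
  · rintro (h | h)
    · left; rw [← h, Equiv.apply_symm_apply]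
    · right; exact h
  · rintro (h | h)
    · left; rw [h, Equiv.symm_apply_apply]
    · right; exact h

theorem disjoint_mv {g : Perm Ω} {J K : Finset Ω} : Disjoint (mv g J) (mv g K) ↔ Disjoint J K :=
  Finset.disjoint_map _

/-- `mv g T = T` when `g` fixes `T` pointwise. -/
theorem mv_eq_self_of_fix {g : Perm Ω} {T : Finset Ω} (h : ∀ x ∈ T, g x = x) : mv g T = T := by
  apply Finset.eq_of_subset_of_card_le
  · intro x hx
    rw [mem_mv] at hx
    have := h _ hx
    rw [Equiv.apply_symm_apply] at this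
    rw [this]; exact hx
  · rw [card_mv]

/-- Conjugation invariance of Jordan sets. -/
theorem IsJ.mv {G : Subgroup (Perm Ω)} {J : Finset Ω} (hJ : IsJ G J) {g : Perm Ω} (hg : g ∈ G) :
    IsJ G (mv g J) := by
  intro a ha b hb
  rw [mem_mv] at ha hb
  obtain ⟨k, hk, hkab, hkfix⟩ := hJ _ ha _ hb
  refine ⟨g * k * g⁻¹, G.mul_mem (G.mul_mem hg hk) (G.inv_mem hg), ?_, ?_⟩
  · simp only [Perm.mul_apply]
    have : g⁻¹ a = g.symm a := rfl
    rw [this, hkab, Equiv.apply_symm_apply]
  · intro x hx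
    rw [mem_mv] at hx
    simp only [Perm.mul_apply]
    have : g⁻¹ x = g.symm x := rfl
    rw [this, hkfix _ hx, Equiv.apply_symm_apply]

/-- The union of two Jordan sets with a common point is a Jordan set. -/
theorem IsJ.union {G : Subgroup (Perm Ω)} {J K : Finset Ω} (hJ : IsJ G J) (hK : IsJ G K)
    (hne : ¬ Disjoint J K) : IsJ G (J ∪ K) := by
  rw [Finset.not_disjoint_iff] at hne
  obtain ⟨c, hcJ, hcK⟩ := hne
  -- every point of the union can be moved to `c`
  have key : ∀ a ∈ J ∪ K, ∃ g ∈ G, g a = c ∧ ∀ x, x ∉ J ∪ K → g x = x := by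
    intro a ha
    rcases Finset.mem_union.mp ha with h | h
    · obtain ⟨g, hg, hga, hgf⟩ := hJ a h c hcJ
      exact ⟨g, hg, hga, fun x hx => hgf x (fun hx' => hx (Finset.mem_union_left _ hx'))⟩
    · obtain ⟨g, hg, hga, hgf⟩ := hK a h c hcK
      exact ⟨g, hg, hga, fun x hx => hgf x (fun hx' => hx (Finset.mem_union_right _ hx'))⟩
  intro a ha b hb
  obtain ⟨g, hg, hga, hgf⟩ := key a ha
  obtain ⟨k, hk, hkb, hkf⟩ := key b hb
  refine ⟨k⁻¹ * g, G.mul_mem (G.inv_mem hk) hg, ?_, ?_⟩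
  · simp only [Perm.mul_apply, hga]
    rw [← hkb]; simp
  · intro x hx
    simp only [Perm.mul_apply, hgf x hx]
    have := hkf x hx
    calc k⁻¹ x = k⁻¹ (k x) := by rw [this]
      _ = x := by simp

theorem JC_iff {G : Subgroup (Perm Ω)} {T : Finset Ω} :
    JC G T ↔ ∀ a, a ∉ T → ∀ b, b ∉ T → ∃ g ∈ G, g a = b ∧ ∀ x ∈ T, g x = x := by
  unfold JC IsJ
  simp only [Finset.mem_compl, not_not]

theorem JC.mv {G : Subgroup (Perm Ω)} {T : Finset Ω} (hT : JC G T) {g : Perm Ω} (hg : g ∈ G) :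
    JC G (mv g T) := by
  unfold JC at hT ⊢
  rw [← mv_compl]
  exact IsJ.mv hT hg

end Cfsg.Agent.Helper32.Jor
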