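import Mathlib.Tactic
import Mathlib.GroupTheory.OrderOfElement

set_option autoImplicit false

/-!
# The dihedral argument for two involutions
-/

namespace Cfsg.Agent.Helper32

/-- Two elements `a`, `b` with `a² = b² = 1` in a finite group: either some `u` with `u² = 1`
conjugates `a` to `b`, or there is an involution `z` commuting with both. -/
theorem dihedral_involutions {G : Type*} [Group G] [Finite G] (a b : G) (ha : a * a = 1)
    (hb : b * b = 1) :
    (∃ u, u * u = 1 ∧ u * a * u = b) ∨
      (∃ z, orderOf z = 2 ∧ z * a = a * z ∧ z * b = b * z) := by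
  have hainv : a⁻¹ = a := inv_eq_of_mul_eq_one_left ha
  have hbinv : b⁻¹ = b := inv_eq_of_mul_eq_one_left hb
  set r := a * b with hr
  have har1 : a * r * a⁻¹ = r⁻¹ := by
    rw [hr, mul_inv_rev, hainv, hbinv]
    calc a * (a * b) * a = (a * a) * b * a := by group
      _ = b * a := by rw [ha, one_mul]
  have hbr1 : b * r * b⁻¹ = r⁻¹ := by
    rw [hr, mul_inv_rev, hainv, hbinv]
    calc b * (a * b) * b = b * a * (b * b) := by group
      _ = b * a := by rw [hb, mul_one]
  have har : ∀ j : ℕ, a * r ^ j * a = (r ^ j)⁻¹ := by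
    intro j
    have := conj_pow (a := a) (b := r) (i := j)
    rw [har1, hainv, inv_pow] at this
    exact this.symm
  have hbr : ∀ j : ℕ, b * r ^ j * b = (r ^ j)⁻¹ := by
    intro j
    have := conj_pow (a := b) (b := r) (i := j)
    rw [hbr1, hbinv, inv_pow] at this
    exact this.symm
  have hn : 0 < orderOf r := orderOf_pos r
  obtain ⟨k, hk | hk⟩ := Nat.even_or_odd' (orderOf r)
  · -- even order
    right
    have hk0 : k ≠ 0 := by
      rintro rfl
      rw [hk] at hn
      exact absurd hn (by norm_num)
    have hz2 : r ^ k * r ^ k = 1 := by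
      rw [← pow_add, ← two_mul, ← hk]
      exact pow_orderOf_eq_one r
    have hzinv : (r ^ k)⁻¹ = r ^ k := inv_eq_of_mul_eq_one_left hz2
    have hz1 : r ^ k ≠ 1 := by
      intro h
      have h1 := orderOf_dvd_of_pow_eq_one h
      have h2 := Nat.le_of_dvd (Nat.pos_of_ne_zero hk0) h1
      omega
    have h2 : Fact (Nat.Prime 2) := ⟨Nat.prime_two⟩
    refine ⟨r ^ k, orderOf_eq_prime (by rw [pow_two]; exact hz2) hz1, ?_, ?_⟩
    · have h3 := har k
      rw [hzinv] at h3
      calc r ^ k * a = (a * r ^ k * a) * a := by rw [h3]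
        _ = a * r ^ k * (a * a) := by group
        _ = a * r ^ k := by rw [ha, mul_one]
    · have h3 := hbr k
      rw [hzinv] at h3
      calc r ^ k * b = (b * r ^ k * b) * b := by rw [h3]
        _ = b * r ^ k * (b * b) := by group
        _ = b * r ^ k := by rw [hb, mul_one]
  · -- odd order
    left
    refine ⟨a * r ^ (k + 1), ?_, ?_⟩
    · calc a * r ^ (k + 1) * (a * r ^ (k + 1)) = (a * r ^ (k + 1) * a) * r ^ (k + 1) := by group
        _ = 1 := by rw [har, inv_mul_cancel]
    · have h1 : r ^ (k + 1) * r ^ (k + 1) = r := by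
        rw [← pow_add]
        have : k + 1 + (k + 1) = orderOf r + 1 := by omega
        rw [this, pow_succ, pow_orderOf_eq_one, one_mul]
      calc a * r ^ (k + 1) * a * (a * r ^ (k + 1))
          = a * r ^ (k + 1) * (a * a) * r ^ (k + 1) := by group
        _ = a * (r ^ (k + 1) * r ^ (k + 1)) := by rw [ha]; group
        _ = a * r := by rw [h1]
        _ = (a * a) * b := by rw [hr]; group
        _ = b := by rw [ha, one_mul]

end Cfsg.Agent.Helper32
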