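import Mathlib
import Cfsg.Agent.Helper32.JorDefs

set_option autoImplicit false

namespace Cfsg.Agent.Helper32.JorBR1

open Equiv Cfsg.Agent.Helper32.Jor

variable {Ω : Type*} [Fintype Ω] [DecidableEq Ω]

/-- PIECE BR1: a primitive group with a Jordan set is 2-transitive (Mathlib's Jordan theorem). -/
theorem jc_small_of_isPreprimitive (G : Subgroup (Perm Ω)) (hprim : MulAction.IsPreprimitive G Ω)
    (Δ : Finset Ω) (hΔ : IsJ G Δ) (hΔ2 : 2 ≤ Δ.card) (hΔn : Δ.card < Fintype.card Ω) :
    ∀ T : Finset Ω, T.card < 2 → JC G T := by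
  classical
  have hsn : ((Δ : Set Ω)ᶜ).ncard = (Fintype.card Ω - Δ.card - 1) + 1 := by
    rw [← Finset.coe_compl, Set.ncard_coe_finset, Finset.card_compl]; omega
  have hsn' : (Fintype.card Ω - Δ.card - 1) + 2 < Nat.card Ω := by
    rw [Nat.card_eq_fintype_card]; omega
  have htr : MulAction.IsPretransitive (fixingSubgroup G ((Δ : Set Ω)ᶜ))
      (SubMulAction.ofFixingSubgroup G ((Δ : Set Ω)ᶜ)) := by
    constructor
    rintro ⟨x, hx⟩ ⟨y, hy⟩
    rw [SubMulAction.mem_ofFixingSubgroup_iff] at hx hy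
    have hx' : x ∈ Δ := by simpa using hx
    have hy' : y ∈ Δ := by simpa using hy
    obtain ⟨g, hg, hgxy, hgfix⟩ := hΔ x hx' y hy'
    refine ⟨⟨⟨g, hg⟩, ?_⟩, ?_⟩
    · rw [mem_fixingSubgroup_iff]
      intro z hz
      exact hgfix z (by simpa using hz)
    · apply Subtype.ext
      exact hgxy
  have h2t := MulAction.IsPreprimitive.is_two_pretransitive hprim hsn hsn' htr
  rw [MulAction.is_two_pretransitive_iff] at h2t
  have htrans : MulAction.IsPretransitive G Ω := hprim.toIsPretransitive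
  intro T hT
  rw [JC_iff]
  intro a ha b hb
  rcases Nat.eq_zero_or_pos T.card with h0 | hpos
  · rw [Finset.card_eq_zero] at h0
    subst h0
    obtain ⟨g, hg⟩ := htrans.exists_smul_eq a b
    exact ⟨g.1, g.2, hg, by simp⟩
  · obtain ⟨c, rfl⟩ := Finset.card_eq_one.mp (by omega : T.card = 1)
    have hca : c ≠ a := fun h => ha (by simp [h])
    have hcb : c ≠ b := fun h => hb (by simp [h])
    obtain ⟨g, hgc, hgab⟩ := h2t hca hcb
    refine ⟨g.1, g.2, hgab, ?_⟩
    intro x hx
    rw [Finset.mem_singleton] at hx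
    subst hx
    exact hgc

end Cfsg.Agent.Helper32.JorBR1
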