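import Mathlib
import Cfsg.Agent.Helper32.JorDefs
import Cfsg.Agent.Helper91.JorC0

set_option autoImplicit false

namespace Cfsg.Agent.Helper32.JorC

open Equiv Cfsg.Agent.Helper32.Jor Cfsg.Agent.Helper91.JorC0

variable {Ω : Type*} [Fintype Ω] [DecidableEq Ω]

/-- PIECE C: a 3-cycle from a Jordan set `Δ` when `G` is `|Δ|`-transitive. -/
theorem exists_threeCycle (G : Subgroup (Perm Ω)) (Δ : Finset Ω) (hΔ : IsJ G Δ)
    (h2 : 2 ≤ Δ.card) (hn : Δ.card < Fintype.card Ω)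
    (hT : ∀ T : Finset Ω, T.card < Δ.card → JC G T) :
    ∃ τ ∈ G, τ.IsThreeCycle := by
  classical
  obtain ⟨a, ha, b, hb, hab⟩ := Finset.one_lt_card.mp h2
  obtain ⟨h, hhG, hhab, hhfix⟩ := hΔ a ha b hb
  obtain ⟨c, hc⟩ : ∃ c, c ∉ Δ := by
    by_contra hno
    push Not at hno
    have h' : Δ = Finset.univ := Finset.eq_univ_iff_forall.mpr hno
    rw [h', Finset.card_univ] at hn
    exact lt_irrefl _ hn
  have hJC := hT (Δ.erase b) (by rw [Finset.card_erase_of_mem hb]; omega)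
  rw [JC_iff] at hJC
  obtain ⟨g, hgG, hgb, hgfix⟩ := hJC b (Finset.notMem_erase b Δ) c
    (fun h' => hc (Finset.mem_of_mem_erase h'))
  refine ⟨h⁻¹ * (g * h * g⁻¹),
    G.mul_mem (G.inv_mem hhG) (G.mul_mem (G.mul_mem hgG hhG) (G.inv_mem hgG)), ?_⟩
  rw [three_cycle_formula Δ h g hhfix a b c ha hhab hab
    (fun x hx hxb => hgfix x (Finset.mem_erase.mpr ⟨hxb, hx⟩)) hgb hc]
  have hbc : b ≠ c := fun h' => hc (h' ▸ hb)
  have hca : c ≠ a := fun h' => hc (h' ▸ ha)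
  rw [swap_comm a b]
  exact Equiv.Perm.isThreeCycle_swap_mul_swap_same hbc (Ne.symm hab) hca

end Cfsg.Agent.Helper32.JorC
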