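import Mathlib
import Cfsg.Agent.Helper32.JorDefs
import Cfsg.Agent.Helper41.JorB1
import Cfsg.Agent.Helper41.JorB2
import Cfsg.Agent.Helper91.JorA

set_option autoImplicit false

namespace Cfsg.Agent.Helper32.JorE1

open Equiv Cfsg.Agent.Helper32.Jor Cfsg.Agent.Helper41.JorB1 Cfsg.Agent.Helper41.JorB2
  Cfsg.Agent.Helper91.JorA

variable {Ω : Type*} [Fintype Ω] [DecidableEq Ω]

/-- PIECE E1: for every `t`-set `X` there is a largest Jordan set avoiding `X`. -/
theorem exists_largest_jordan (G : Subgroup (Perm Ω)) (t : ℕ) (ht : 2 ≤ t)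
    (hT : ∀ T : Finset Ω, T.card < t → JC G T)
    (hnot : ∀ X : Finset Ω, X.card = t → ¬ JC G X)
    (Δ : Finset Ω) (hΔ : IsJ G Δ) (hΔ2 : 2 ≤ Δ.card) (hΔt : t + Δ.card ≤ Fintype.card Ω)
    (X : Finset Ω) (hX : X.card = t) :
    ∃ U : Finset Ω, IsJ G U ∧ 2 ≤ U.card ∧ Disjoint U X ∧
      ∀ J' : Finset Ω, IsJ G J' → 2 ≤ J'.card → Disjoint J' X → J' ⊆ U := by
  classical
  -- split `X = insert α (insert β T)`
  obtain ⟨α, hα⟩ : X.Nonempty := by rw [← Finset.card_pos]; omega
  have hc1 : (X.erase α).card = t - 1 := by rw [Finset.card_erase_of_mem hα, hX]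
  obtain ⟨β, hβ⟩ : (X.erase α).Nonempty := by rw [← Finset.card_pos]; omega
  set T := (X.erase α).erase β with hTdef
  have hcT : T.card = t - 2 := by
    rw [hTdef, Finset.card_erase_of_mem hβ, hc1]; omega
  have hαβ : α ≠ β := fun h => (Finset.mem_erase.mp hβ).1 h.symm
  have hαT : α ∉ T := by
    intro h
    exact (Finset.mem_erase.mp (Finset.mem_erase.mp h).2).1 rfl
  have hβT : β ∉ T := by
    intro h
    exact (Finset.mem_erase.mp h).1 rfl
  have hXeq : insert α (insert β T) = X := by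
    rw [hTdef, Finset.insert_erase hβ, Finset.insert_erase hα]
  have h2 : Rel2 G T := by
    apply rel2_of_JC G T (hT T (by omega))
    intro a ha
    apply hT
    rw [Finset.card_insert_of_notMem ha]; omega
  have hno3 : ∀ a b : Ω, a ∉ T → b ∉ T → a ≠ b → ¬ JC G (insert a (insert b T)) := by
    intro a b ha hb hab
    apply hnot
    rw [Finset.card_insert_of_notMem, Finset.card_insert_of_notMem hb, hcT]
    · omega
    · intro h
      rcases Finset.mem_insert.mp h with h | h
      · exact hab h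
      · exact ha h
  -- a translate of `Δ` off `T`
  obtain ⟨T', hT'sub, hT'card⟩ := Finset.exists_subset_card_eq (s := Δᶜ) (n := t - 2)
    (by rw [Finset.card_compl]; omega)
  obtain ⟨g, hg, hgT⟩ := exists_mv_eq G t hT T' T (by rw [hT'card, hcT]) (by omega)
  have hJ0T : Disjoint (mv g Δ) T := by
    rw [← hgT]
    apply disjoint_mv.mpr
    rw [Finset.disjoint_left]
    intro x hx hx'
    exact Finset.mem_compl.mp (hT'sub hx') hx
  obtain ⟨U, hU1, hU2, hU3, hU4⟩ := exists_max_jordan G T h2 hno3 (mv g Δ) (hΔ.mv hg) hJ0T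
    (by rw [card_mv]; exact hΔ2) (by rw [card_mv, hcT]; omega) α β hαT hβT hαβ
  rw [hXeq] at hU3 hU4
  exact ⟨U, hU1, hU2, hU3, hU4⟩

end Cfsg.Agent.Helper32.JorE1
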