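import Mathlib
import Cfsg.Agent.Helper32.JorDefs
import Cfsg.Agent.Helper41.JorB1
import Cfsg.Agent.Helper32.JorE1

set_option autoImplicit false

namespace Cfsg.Agent.Helper32.JorE

open Equiv Cfsg.Agent.Helper32.Jor Cfsg.Agent.Helper41.JorB1 Cfsg.Agent.Helper32.JorE1

variable {Ω : Type*} [Fintype Ω] [DecidableEq Ω]

/-- PIECE E: the Steiner system of complements of largest Jordan sets. -/
theorem steiner_of_exact (G : Subgroup (Perm Ω)) (t : ℕ) (ht : 2 ≤ t)
    (hT : ∀ T : Finset Ω, T.card < t → JC G T)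
    (hnot : ∀ X : Finset Ω, X.card = t → ¬ JC G X)
    (Δ : Finset Ω) (hΔ : IsJ G Δ) (hΔ2 : 2 ≤ Δ.card) (hΔt : t + Δ.card ≤ Fintype.card Ω) :
    ∃ (k : ℕ) (Γ : Finset Ω → Finset Ω), t + 1 ≤ k ∧
      (∀ X : Finset Ω, X.card = t → X ⊆ Γ X ∧ (Γ X).card = k) ∧
      (∀ X X' : Finset Ω, X.card = t → X'.card = t → X' ⊆ Γ X → Γ X' = Γ X) ∧
      (∀ X : Finset Ω, X.card = t → Disjoint X Δ → Disjoint (Γ X) Δ) := by
  classical
  have hex := exists_largest_jordan G t ht hT hnot Δ hΔ hΔ2 hΔt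
  let U : Finset Ω → Finset Ω := fun X => if hX : X.card = t then (hex X hX).choose else ∅
  have hU : ∀ X, X.card = t → IsJ G (U X) ∧ 2 ≤ (U X).card ∧ Disjoint (U X) X ∧
      ∀ J' : Finset Ω, IsJ G J' → 2 ≤ J'.card → Disjoint J' X → J' ⊆ U X := by
    intro X hX
    have h := (hex X hX).choose_spec
    simp only [U, dif_pos hX]
    exact h
  have hUmv : ∀ X, X.card = t → ∀ g ∈ G, U (mv g X) = mv g (U X) := by
    intro X hX g hg
    have hX' : (mv g X).card = t := by rw [card_mv, hX]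
    obtain ⟨h1, h2, h3, h4⟩ := hU X hX
    obtain ⟨h1', h2', h3', h4'⟩ := hU (mv g X) hX'
    apply Finset.Subset.antisymm
    · have hsub : mv g⁻¹ (U (mv g X)) ⊆ U X := by
        apply h4
        · exact h1'.mv (G.inv_mem hg)
        · rw [card_mv]; exact h2'
        · have h5 : Disjoint (mv g⁻¹ (U (mv g X))) (mv g⁻¹ (mv g X)) := disjoint_mv.mpr h3'
          rwa [mv_inv_mv] at h5
      have h6 := (mv_subset_mv (g := g)).mpr hsub
      rwa [mv_mv_inv] at h6
    · apply h4'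
      · exact h1.mv hg
      · rw [card_mv]; exact h2
      · exact disjoint_mv.mpr h3
  have hn : t ≤ Fintype.card Ω := by omega
  obtain ⟨X₁, hX₁⟩ : ∃ X₁ : Finset Ω, X₁.card = t := by
    obtain ⟨X₁, -, h⟩ := Finset.exists_subset_card_eq (s := (Finset.univ : Finset Ω)) (n := t)
      (by rw [Finset.card_univ]; exact hn)
    exact ⟨X₁, h⟩
  have hsubΓ : ∀ X, X.card = t → X ⊆ (U X)ᶜ := by
    intro X hX x hx
    rw [Finset.mem_compl]
    exact fun h => Finset.disjoint_left.mp (hU X hX).2.2.1 h hx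
  have hcard : ∀ X, X.card = t → (U X)ᶜ.card = (U X₁)ᶜ.card := by
    intro X hX
    obtain ⟨g, hg, hgX⟩ := exists_mv_eq G t hT X₁ X (by rw [hX₁, hX]) (by omega)
    rw [← hgX, hUmv X₁ hX₁ g hg, ← mv_compl, card_mv]
  refine ⟨(U X₁)ᶜ.card, fun X => (U X)ᶜ, ?_, ?_, ?_, ?_⟩
  · obtain ⟨h1, h2, h3, h4⟩ := hU X₁ hX₁
    have hne : X₁ ≠ (U X₁)ᶜ := by
      intro h
      apply hnot X₁ hX₁
      have h' : X₁ᶜ = U X₁ := by
        rw [compl_eq_comm]; exact h.symm
      unfold JC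
      rw [h']
      exact h1
    have hlt := Finset.card_lt_card (Finset.ssubset_iff_subset_ne.mpr ⟨hsubΓ X₁ hX₁, hne⟩)
    omega
  · intro X hX
    exact ⟨hsubΓ X hX, hcard X hX⟩
  · intro X X' hX hX' hsub
    obtain ⟨h1, h2, h3, h4⟩ := hU X hX
    obtain ⟨h1', h2', h3', h4'⟩ := hU X' hX'
    have hUU : U X ⊆ U X' := by
      apply h4' _ h1 h2
      rw [Finset.disjoint_left]
      intro x hx hx'
      have h5 := hsub hx'
      rw [Finset.mem_compl] at h5
      exact h5 hx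
    apply Finset.eq_of_subset_of_card_le
    · exact Finset.compl_subset_compl.mpr hUU
    · rw [hcard X hX, hcard X' hX']
  · intro X hX hdisj
    obtain ⟨h1, h2, h3, h4⟩ := hU X hX
    have hΔU : Δ ⊆ U X := h4 Δ hΔ hΔ2 hdisj.symm
    rw [Finset.disjoint_left]
    intro x hx hxΔ
    rw [Finset.mem_compl] at hx
    exact hx (hΔU hxΔ)

end Cfsg.Agent.Helper32.JorE
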