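import Mathlib
import Cfsg.Agent.Helper32.JorDefs
import Cfsg.Agent.Helper91.JorC0
import Cfsg.Agent.Helper81.JorH3b1

set_option autoImplicit false

namespace Cfsg.Agent.Helper32.JorH3b

open Equiv Cfsg.Agent.Helper32.Jor Cfsg.Agent.Helper91.JorC0 Cfsg.Agent.Helper81.JorH3b1

/-- PIECE H3b: the case of at least six blocks. -/
theorem quasi_contra_six {G Ω X : Type*} [Group G] [Finite G] [MulAction G Ω] [Fintype Ω]
    [DecidableEq Ω] [MulAction G X] [Fintype X] [DecidableEq X] [FaithfulSMul G X]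
    (hqp : ∀ N : Subgroup G, N.Normal → N ≠ ⊥ → MulAction.IsPretransitive ↥N Ω)
    (π : Ω → X) (hπ : ∀ (g : G) (ω : Ω), π (g • ω) = g • π ω) (hπs : Function.Surjective π)
    (hπni : ¬ Function.Injective π)
    (halt : ∀ σ : Perm X, Perm.sign σ = 1 → ∃ g : G, MulAction.toPerm g = σ)
    (Γ : Finset Ω) (Γ' : Finset X) (hΓ : ∀ ω, ω ∈ Γ ↔ π ω ∈ Γ')
    (hJ : ∀ a ∈ Γ, ∀ b ∈ Γ, ∃ g : G, g • a = b ∧ ∀ x, x ∉ Γ → g • x = x)
    (h2 : 2 ≤ Γ'.card) (hn : 2 * Γ'.card < Fintype.card X) (h6 : 6 ≤ Fintype.card X) : False := by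
  classical
  obtain ⟨xa, hxa, xb, hxb, hxab⟩ := Finset.one_lt_card.mp h2
  obtain ⟨a, rfl⟩ := hπs xa
  obtain ⟨b, rfl⟩ := hπs xb
  have haΓ : a ∈ Γ := (hΓ a).mpr hxa
  have hbΓ : b ∈ Γ := (hΓ b).mpr hxb
  obtain ⟨h, hab, hfix⟩ := hJ a haΓ b hbΓ
  have hfixX : ∀ x, x ∉ Γ' → h • x = x := by
    intro x hx
    obtain ⟨ξ, rfl⟩ := hπs x
    rw [← hπ, hfix ξ (fun hξ => hx ((hΓ ξ).mp hξ))]
  have hcomp : 2 < Γ'ᶜ.card := by rw [Finset.card_compl]; omega
  obtain ⟨x₀, hx₀, c, hc, d, hd, hx₀c, hx₀d, hcd⟩ := Finset.two_lt_card.mp hcomp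
  rw [Finset.mem_compl] at hx₀ hc hd
  have hbc : π b ≠ c := fun h' => hc (h' ▸ hxb)
  have hbd : π b ≠ d := fun h' => hd (h' ▸ hxb)
  have hac : π a ≠ c := fun h' => hc (h' ▸ hxa)
  have hax₀ : π a ≠ x₀ := fun h' => hx₀ (h' ▸ hxa)
  have hbx₀ : π b ≠ x₀ := fun h' => hx₀ (h' ▸ hxb)
  have hneg : (-1 : ℤˣ) * (-1) = 1 := by decide
  set σ : Perm X := swap (π b) c * swap c d with hσ
  have hσsign : Perm.sign σ = 1 := by
    rw [hσ, Perm.sign_mul, Perm.sign_swap hbc, Perm.sign_swap hcd, hneg]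
  obtain ⟨g, hg⟩ := halt σ hσsign
  set τ : G := h⁻¹ * (g * h * g⁻¹) with hτ
  have hτperm : (MulAction.toPerm τ : Perm X) = swap (π b) c * swap (π a) (π b) := by
    have e1 : (MulAction.toPerm τ : Perm X) = (MulAction.toPerm h : Perm X)⁻¹ *
        ((MulAction.toPerm g : Perm X) * MulAction.toPerm h * (MulAction.toPerm g : Perm X)⁻¹) := by
      rw [hτ]
      simp only [← MulAction.toPermHom_apply, map_mul, map_inv]
    rw [e1]
    refine three_cycle_formula Γ' (MulAction.toPerm h) (MulAction.toPerm g) ?_ (π a) (π b) c hxa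
      ?_ hxab ?_ ?_ hc
    · intro x hx; exact hfixX x hx
    · show h • π a = π b
      rw [← hπ, hab]
    · intro x hx hxb'
      have hxc : x ≠ c := fun h' => hc (h' ▸ hx)
      have hxd : x ≠ d := fun h' => hd (h' ▸ hx)
      rw [hg, hσ, Perm.mul_apply, swap_apply_of_ne_of_ne hxc hxd,
        swap_apply_of_ne_of_ne hxb' hxc]
    · rw [hg, hσ, Perm.mul_apply, swap_apply_of_ne_of_ne hbc hbd, swap_apply_left]
  have hτs : Perm.sign (MulAction.toPerm τ : Perm X) = 1 := by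
    rw [hτperm, Perm.sign_mul, Perm.sign_swap hbc, Perm.sign_swap hxab, hneg]
  have hτ1 : τ ≠ 1 := by
    intro h1
    have h3 : (MulAction.toPerm τ : Perm X) (π a) = c := by
      rw [hτperm, Perm.mul_apply, swap_apply_left, swap_apply_left]
    rw [h1] at h3
    have h' : (MulAction.toPerm (1 : G) : Perm X) (π a) = π a := by simp
    exact hac (h'.symm.trans h3)
  have hτx : τ • x₀ = x₀ := by
    have h3 : (MulAction.toPerm τ : Perm X) x₀ = x₀ := by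
      rw [hτperm, Perm.mul_apply, swap_apply_of_ne_of_ne (Ne.symm hax₀) (Ne.symm hbx₀),
        swap_apply_of_ne_of_ne (Ne.symm hbx₀) hx₀c]
    exact h3
  have hgx₀ : g • x₀ = x₀ := by
    have h3 : (MulAction.toPerm g : Perm X) x₀ = x₀ := by
      rw [hg, hσ, Perm.mul_apply, swap_apply_of_ne_of_ne hx₀c hx₀d,
        swap_apply_of_ne_of_ne (Ne.symm hbx₀) hx₀c]
    exact h3
  let M₀ : Subgroup G :=
    { carrier := {m | ∀ ω, π ω = x₀ → m • ω = ω}
      mul_mem' := by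
        intro m m' hm hm' ω hω
        rw [mul_smul, hm' ω hω, hm ω hω]
      one_mem' := by intro ω _; exact one_smul _ _
      inv_mem' := by
        intro m hm ω hω
        rw [inv_smul_eq_iff, hm ω hω] }
  have hmem : ∀ m : G, m ∈ M₀ ↔ ∀ ω, π ω = x₀ → m • ω = ω := fun m => Iff.rfl
  have hfixfib : ∀ ω, π ω = x₀ → h • ω = ω := by
    intro ω hω
    apply hfix
    intro hωΓ
    exact hx₀ (hω ▸ (hΓ ω).mp hωΓ)
  have hτM : τ ∈ M₀ := by
    rw [hmem]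
    intro ω hω
    have h1 : π (g⁻¹ • ω) = x₀ := by
      rw [hπ, hω, inv_smul_eq_iff, hgx₀]
    rw [hτ, mul_smul, mul_smul, mul_smul, hfixfib _ h1, smul_inv_smul, inv_smul_eq_iff,
      hfixfib ω hω]
  have hnorm : ∀ d : G, Perm.sign (MulAction.toPerm d : Perm X) = 1 → d • x₀ = x₀ →
      ∀ m ∈ M₀, d * m * d⁻¹ ∈ M₀ := by
    intro d _ hdx m hm
    rw [hmem] at hm ⊢
    intro ω hω
    have h1 : π (d⁻¹ • ω) = x₀ := by
      rw [hπ, hω, inv_smul_eq_iff, hdx]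
    rw [mul_smul, mul_smul, hm _ h1, smul_inv_smul]
  have hall := stabilizer_alt_simple halt h6 x₀ M₀ hnorm τ hτM hτ1 hτs hτx
  let A : Subgroup G := (alternatingGroup X).comap (MulAction.toPermHom G X)
  have hAmem : ∀ ν : G, ν ∈ A ↔ Perm.sign (MulAction.toPerm ν : Perm X) = 1 := by
    intro ν
    show MulAction.toPermHom G X ν ∈ alternatingGroup X ↔ _
    rw [Perm.mem_alternatingGroup]
    rfl
  have hAn : A.Normal := Subgroup.Normal.comap inferInstance _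
  have hAne : A ≠ ⊥ := by
    intro hA
    have h3 : τ ∈ A := (hAmem τ).mpr hτs
    rw [hA, Subgroup.mem_bot] at h3
    exact hτ1 h3
  have hAtr := hqp A hAn hAne
  have hex : ∃ ω ω', π ω = π ω' ∧ ω ≠ ω' := by
    by_contra hcon
    apply hπni
    intro ω ω' hωω'
    by_contra hne
    exact hcon ⟨ω, ω', hωω', hne⟩
  obtain ⟨ω, ω', hωω', hne⟩ := hex
  obtain ⟨ξ₀, hξ₀⟩ := hπs x₀
  obtain ⟨ν₁, hν₁⟩ := hAtr.exists_smul_eq ω ξ₀
  have hν₁' : (ν₁ : G) • ω = ξ₀ := hν₁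
  have h1 : π ((ν₁ : G) • ω) = x₀ := by rw [hν₁', hξ₀]
  have h2' : π ((ν₁ : G) • ω') = x₀ := by rw [hπ, ← hωω', ← hπ, h1]
  obtain ⟨ν, hν⟩ := hAtr.exists_smul_eq ((ν₁ : G) • ω) ((ν₁ : G) • ω')
  have hν' : (ν : G) • ((ν₁ : G) • ω) = (ν₁ : G) • ω' := hν
  have hνx : (ν : G) • x₀ = x₀ := by
    conv_lhs => rw [← h1]
    rw [← hπ, hν', h2']
  have hνM := hall ν ((hAmem ν).mp ν.2) hνx
  have h5 := (hmem _).mp hνM _ h1
  rw [hν'] at h5
  exact hne (smul_left_cancel _ h5).symm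

end Cfsg.Agent.Helper32.JorH3b
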