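import Mathlib
import Cfsg.Agent.Helper32.JorDefs
import Cfsg.Agent.Helper41.JorB1
import Cfsg.Agent.Helper29.JorFa
import Cfsg.Agent.Helper4.JorFb
import Cfsg.Agent.Helper29.JorFe
import Cfsg.Agent.Helper58.JorFd
import Cfsg.Agent.Helper29.JorBR0
import Cfsg.Agent.Helper32.JorBR1
import Cfsg.Agent.Helper65.JorH1
import Cfsg.Agent.Helper65.JorH2
import Cfsg.Agent.Helper78.JorH5
import Cfsg.Agent.Helper29.JorH6
import Cfsg.Agent.Helper41.JorH3a
import Cfsg.Agent.Helper65.JorH7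
import Cfsg.Agent.Helper32.JorC
import Cfsg.Agent.Helper32.JorH3b
import Cfsg.Agent.Helper32.JorE
import Cfsg.Agent.Helper58.JorFc
import Cfsg.Agent.Helper29.JorBR2

set_option autoImplicit false

/-!
# Marggraf's theorem (S3620): assembly of the pieces of CALL S3620
-/

namespace Cfsg.Agent.Helper32.JorMain

open Equiv Cfsg.Agent.Helper32.Jor
open Cfsg.Agent.Helper41.JorB1 Cfsg.Agent.Helper29.JorFa Cfsg.Agent.Helper4.JorFb Cfsg.Agent.Helper29.JorFe Cfsg.Agent.Helper58.JorFd Cfsg.Agent.Helper29.JorBR0 Cfsg.Agent.Helper32.JorBR1 Cfsg.Agent.Helper65.JorH1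
open Cfsg.Agent.Helper65.JorH2 Cfsg.Agent.Helper78.JorH5 Cfsg.Agent.Helper29.JorH6 Cfsg.Agent.Helper41.JorH3a Cfsg.Agent.Helper65.JorH7 Cfsg.Agent.Helper32.JorC Cfsg.Agent.Helper32.JorH3b Cfsg.Agent.Helper32.JorE
open Cfsg.Agent.Helper58.JorFc Cfsg.Agent.Helper29.JorBR2

section perm

variable {Ω : Type*} [Fintype Ω] [DecidableEq Ω]

/-- ASSEMBLY (helper32): a closed set with at least `t` points has at most half of the points. -/
theorem design_bound (t k : ℕ) (ht : 2 ≤ t) (hk : t + 1 ≤ k) (Γ : Finset Ω → Finset Ω)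
    (h1 : ∀ X : Finset Ω, X.card = t → X ⊆ Γ X ∧ (Γ X).card = k)
    (h2 : ∀ X X' : Finset Ω, X.card = t → X'.card = t → X' ⊆ Γ X → Γ X' = Γ X)
    (S : Finset Ω) (hS : ∀ X : Finset Ω, X.card = t → X ⊆ S → Γ X ⊆ S)
    (hSt : t ≤ S.card) (hSne : S ≠ Finset.univ) :
    S.card ≤ Sᶜ.card := by
  by_contra hlt
  push Not at hlt
  have hd : 1 ≤ Sᶜ.card := by
    rw [Nat.succ_le_iff, Finset.card_pos, Finset.nonempty_iff_ne_empty]
    intro h
    exact hSne (by rw [← compl_compl S, h, Finset.compl_empty])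
  rcases Nat.eq_or_lt_of_le hk with hk1 | hk2
  · subst hk1
    obtain ⟨E, F, hE0, hE1, hrec⟩ := design_count t ht Γ h1 h2 S hS
    obtain ⟨x, hx0, hx1, hxrec⟩ := desc_of_choose S.card Sᶜ.card t E F hE0 hE1 hrec
    exact desc_alg S.card Sᶜ.card t ht hSt hd hlt x hx0 hx1 hxrec
  · have ha := design_a_bound t k ht hk Γ h1 h2 S hS hSt hSne
    obtain ⟨c, rfl⟩ : ∃ c, k = t + c := ⟨k - t, by omega⟩
    have hc : 2 ≤ c := by omega
    simp only [Nat.add_sub_cancel_left] at ha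
    rcases design_tits t (t + c) ht hk Γ h1 h2 S hS hSt hSne with hb | ⟨hb1, hb2⟩
    · simp only [Nat.add_sub_cancel_left] at hb
      obtain ⟨u, hu⟩ : ∃ u, S.card = t + u := ⟨S.card - t, by omega⟩
      rw [hu] at ha hb hlt
      have h3 : t + u + 2 - t = u + 2 := by omega
      rw [h3] at ha
      have h4 : 2 * (u + 2) ≤ (u + 2) * c := by
        rw [Nat.mul_comm]; exact Nat.mul_le_mul_left _ hc
      have h5 : 2 * t ≤ t * c := by
        rw [Nat.mul_comm]; exact Nat.mul_le_mul_left _ hc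
      omega
    · simp only [Nat.add_sub_cancel_left] at hb2
      rw [hb1] at hlt
      have h5 : (t - 1) * (c - 1) + t + c = t * c + 1 := by
        obtain ⟨t', rfl⟩ : ∃ t', t = t' + 1 := ⟨t - 1, by omega⟩
        obtain ⟨c', rfl⟩ : ∃ c', c = c' + 1 := ⟨c - 1, by omega⟩
        simp only [Nat.add_sub_cancel]
        ring
      omega

/-- ASSEMBLY (helper32): Marggraf's theorem for primitive subgroups of `Perm Ω`. -/
theorem alt_le_of_isPreprimitive (G : Subgroup (Perm Ω)) (hprim : MulAction.IsPreprimitive G Ω)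
    (Δ : Finset Ω) (hΔ : IsJ G Δ) (hΔ2 : 2 ≤ Δ.card) (hΔn : 2 * Δ.card < Fintype.card Ω) :
    alternatingGroup Ω ≤ G := by
  have hsmall := jc_small_of_isPreprimitive G hprim Δ hΔ hΔ2 (by omega)
  by_cases hall : ∀ T : Finset Ω, T.card < Δ.card → JC G T
  · obtain ⟨τ, hτG, hτ3⟩ := exists_threeCycle G Δ hΔ hΔ2 (by omega) hall
    exact Equiv.Perm.alternatingGroup_le_of_isPreprimitive_of_isThreeCycle_mem hprim hτ3 hτG
  · exfalso
    push Not at hall
    have hex : ∃ t, ∃ T : Finset Ω, T.card = t ∧ ¬ JC G T := by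
      obtain ⟨T, hT1, hT2⟩ := hall
      exact ⟨T.card, T, rfl, hT2⟩
    classical
    obtain ⟨X₀, hX₀t, hX₀⟩ := Nat.find_spec hex
    have hmin : ∀ T : Finset Ω, T.card < Nat.find hex → JC G T := by
      intro T hT
      by_contra hT'
      exact Nat.find_min hex hT ⟨T, rfl, hT'⟩
    have ht2 : 2 ≤ Nat.find hex := by
      by_contra h
      exact hX₀ (hsmall X₀ (by omega))
    have htm : Nat.find hex < Δ.card := by
      obtain ⟨T, hT1, hT2⟩ := hall
      have : Nat.find hex ≤ T.card := Nat.find_min' hex ⟨T, rfl, hT2⟩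
      omega
    have hnot : ∀ X : Finset Ω, X.card = Nat.find hex → ¬ JC G X := by
      intro X hX hJC
      obtain ⟨g, hg, hgX⟩ := exists_mv_eq G (Nat.find hex) hmin X X₀ (by rw [hX, hX₀t]) (by omega)
      exact hX₀ (hgX ▸ hJC.mv hg)
    obtain ⟨k, Γ, hk, h1, h2, h3⟩ :=
      steiner_of_exact G (Nat.find hex) ht2 hmin hnot Δ hΔ hΔ2 (by omega)
    have hcard : Δᶜ.card = Fintype.card Ω - Δ.card := Finset.card_compl Δ
    have hfin := design_bound (Nat.find hex) k ht2 hk Γ h1 h2 Δᶜ ?_ ?_ ?_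
    · rw [compl_compl, hcard] at hfin; omega
    · intro X hX hXS
      have hd := h3 X hX (by
        rw [Finset.disjoint_left]; intro x hx; exact Finset.mem_compl.mp (hXS hx))
      intro x hx
      rw [Finset.mem_compl]
      exact Finset.disjoint_left.mp hd hx
    · rw [hcard]; omega
    · intro h
      have h0 : Δ = ∅ := by rw [← compl_compl Δ, h]; simp
      rw [h0] at hΔ2; simp at hΔ2

end perm

/-- ASSEMBLY (helper32): quasiprimitive with a Jordan set `Γ`, `1 < |Γ| < n/2`, is primitive. -/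
theorem isPreprimitive_of_quasiprimitive {G Ω : Type*} [Group G] [Finite G] [MulAction G Ω]
    [FaithfulSMul G Ω] [Fintype Ω] [DecidableEq Ω]
    (hqp : ∀ N : Subgroup G, N.Normal → N ≠ ⊥ → MulAction.IsPretransitive ↥N Ω)
    (Γ : Finset Ω) (hJ : ∀ a ∈ Γ, ∀ b ∈ Γ, ∃ g : G, g • a = b ∧ ∀ x, x ∉ Γ → g • x = x)
    (h2 : 2 ≤ Γ.card) (hn : 2 * Γ.card < Fintype.card Ω) :
    MulAction.IsPreprimitive G Ω := by
  classical
  obtain ⟨a, ha, b, hb, hab⟩ := Finset.one_lt_card.mp h2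
  obtain ⟨g₀, hg₀, -⟩ := hJ a ha b hb
  have hg₀1 : g₀ ≠ 1 := by
    rintro rfl
    exact hab (by simpa using hg₀)
  have htop : (⊤ : Subgroup G) ≠ ⊥ := by
    intro h
    have h' : g₀ ∈ (⊥ : Subgroup G) := h ▸ Subgroup.mem_top g₀
    exact hg₀1 (Subgroup.mem_bot.mp h')
  have htrans : MulAction.IsPretransitive G Ω := by
    have h' := hqp ⊤ inferInstance htop
    constructor
    intro x y
    obtain ⟨g, hg⟩ := h'.exists_smul_eq x y
    exact ⟨g.1, hg⟩
  have : Nontrivial Ω := ⟨⟨a, b, hab⟩⟩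
  by_contra hnp
  obtain ⟨M, hM, hlt⟩ := exists_coatom_of_not_isPreprimitive hnp a
  have hcore : M.normalCore = ⊥ := by
    by_contra hne
    have htr := hqp M.normalCore inferInstance hne
    apply hM.1
    rw [eq_top_iff]
    intro g _
    obtain ⟨m, hm⟩ := htr.exists_smul_eq a (g • a)
    have hmM : (m : G) ∈ M := Subgroup.normalCore_le M m.2
    have hm' : (m : G) • a = g • a := hm
    have hst : (g⁻¹ * (m : G)) ∈ MulAction.stabilizer G a := by
      rw [MulAction.mem_stabilizer_iff, mul_smul, hm', inv_smul_smul]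
    have h3 := M.mul_mem hmM (M.inv_mem (hlt.le hst))
    simpa using h3
  obtain ⟨hfaith, hprimX⟩ := quotient_faithful_primitive M hM hcore
  have := hfaith
  have := hprimX
  have : Fintype (G ⧸ M) := Fintype.ofFinite _
  obtain ⟨π, hπ, hπa⟩ := exists_equivariant_map a M hlt.le
  have hπs : Function.Surjective π := by
    intro x
    obtain ⟨g, rfl⟩ := QuotientGroup.mk_surjective x
    refine ⟨g • a, ?_⟩
    rw [hπ, hπa]
    change ((g * 1 : G) : G ⧸ M) = _
    rw [mul_one]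
  have hπni : ¬ Function.Injective π := by
    intro hinj
    obtain ⟨m, hmM, hmS⟩ := SetLike.exists_of_lt hlt
    apply hmS
    rw [MulAction.mem_stabilizer_iff]
    apply hinj
    rw [hπ, hπa]
    change ((m * 1 : G) : G ⧸ M) = _
    rw [mul_one]
    exact QuotientGroup.eq.mpr (by simpa using M.inv_mem hmM)
  obtain ⟨hΓ, h2', hJ'⟩ := jordan_image π hπ hπs Γ hJ h2
  obtain ⟨bb, hbb⟩ := card_fiber π hπ
  have hΓcard : Γ.card = bb * (Γ.image π).card := by
    rw [← hbb]
    congr 1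
    ext ω
    rw [Finset.mem_filter]
    simp only [Finset.mem_univ, true_and]
    exact hΓ ω
  have hΩcard : Fintype.card Ω = bb * Fintype.card (G ⧸ M) := by
    have h' := hbb Finset.univ
    simpa [Finset.card_univ] using h'
  have hn' : 2 * (Γ.image π).card < Fintype.card (G ⧸ M) := by
    rw [hΓcard, hΩcard] at hn
    by_contra hcon
    push Not at hcon
    have h' := Nat.mul_le_mul_left bb hcon
    have h'' : bb * (2 * (Γ.image π).card) = 2 * (bb * (Γ.image π).card) := by ring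
    omega
  have halt := exists_toPerm_eq_of_isPreprimitive
    (fun P hP Δ hΔ hΔ2 hΔn => alt_le_of_isPreprimitive P hP Δ hΔ hΔ2 hΔn)
    hprimX (Γ.image π) hJ' h2' hn'
  rcases Nat.eq_or_lt_of_le h2' with h2eq | h2lt
  · exact quasi_contra_two π hπ hπs hπni Γ (Γ.image π) hΓ hJ h2eq.symm
  · exact quasi_contra_six hqp π hπ hπs hπni halt Γ (Γ.image π) hΓ hJ h2' hn' (by omega)

/-- ASSEMBLY (helper32): Marggraf's theorem in the form of S3620. -/
theorem marggraf {G Ω : Type*} [Group G] [Finite G] [MulAction G Ω] [FaithfulSMul G Ω]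
    [Fintype Ω] [DecidableEq Ω]
    (hqp : ∀ N : Subgroup G, N.Normal → N ≠ ⊥ → MulAction.IsPretransitive ↥N Ω)
    (Γ : Set Ω) (hΓ1 : 1 < Γ.ncard) (hΓ2 : 2 * Γ.ncard < Fintype.card Ω)
    (hJ : MulAction.IsPretransitive ↥(fixingSubgroup G Γᶜ)
      ↥(SubMulAction.ofFixingSubgroup G Γᶜ)) :
    ∀ σ : Equiv.Perm Ω, Equiv.Perm.sign σ = 1 →
      ∃ x : G, (MulAction.toPerm x : Equiv.Perm Ω) = σ := by
  classical
  have hJe := jordan_elementary Γ hJ
  have hcard : Γ.toFinset.card = Γ.ncard := by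
    rw [Set.ncard_eq_toFinset_card']
  have hJf : ∀ a ∈ Γ.toFinset, ∀ b ∈ Γ.toFinset,
      ∃ g : G, g • a = b ∧ ∀ x, x ∉ Γ.toFinset → g • x = x := by
    intro a ha b hb
    rw [Set.mem_toFinset] at ha hb
    obtain ⟨g, hg, hfix⟩ := hJe a ha b hb
    exact ⟨g, hg, fun x hx => hfix x (by rwa [Set.mem_toFinset] at hx)⟩
  have hprim := isPreprimitive_of_quasiprimitive hqp Γ.toFinset hJf (by omega) (by omega)
  exact exists_toPerm_eq_of_isPreprimitive
    (fun P hP Δ hΔ hΔ2 hΔn => alt_le_of_isPreprimitive P hP Δ hΔ hΔ2 hΔn)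
    hprim Γ.toFinset hJf (by omega) (by omega)

end Cfsg.Agent.Helper32.JorMain
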