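import Mathlib
import Cfsg.Agent.Helper32.MetaTwoA

set_option autoImplicit false

namespace Cfsg.Agent.Helper32

open Subgroup

/-- A cyclic group of order `m` is isomorphic to `Multiplicative (ZMod m)`. -/
theorem nonempty_mulEquiv_zmod_of_isCyclic {H : Type*} [Group H] [hH : IsCyclic H] (m : ℕ)
    (hm : Nat.card H = m) : Nonempty (H ≃* Multiplicative (ZMod m)) := by
  subst hm
  exact ⟨(zmodCyclicMulEquiv hH).symm⟩

/-- In a finite group every element of `zpowers a` is a natural power of `a`. -/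
theorem exists_pow_of_mem_zpowers {X : Type*} [Group X] [Finite X] {a x : X}
    (hx : x ∈ Subgroup.zpowers a) : ∃ t : ℕ, a ^ t = x := by
  have h3 : x ∈ Submonoid.powers a := (mem_powers_iff_mem_zpowers).2 hx
  exact (Submonoid.mem_powers_iff _ _).1 h3

/-- An involution of `zpowers a`, `orderOf a = 2 ^ n`, is `a ^ (2 ^ (n - 1))`. -/
theorem eq_pow_of_sq_eq_one {X : Type*} [Group X] [Finite X] {a x : X} {n : ℕ}
    (ha : orderOf a = 2 ^ n) (hx : x ∈ Subgroup.zpowers a) (hx2 : x ^ 2 = 1) (hx1 : x ≠ 1) :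
    x = a ^ (2 ^ (n - 1)) ∧ 1 ≤ n := by
  obtain ⟨t, rfl⟩ := exists_pow_of_mem_zpowers hx
  have hn : 1 ≤ n := by
    by_contra hc
    push Not at hc
    have hn0 : n = 0 := by omega
    rw [hn0, pow_zero, orderOf_eq_one_iff] at ha
    rw [ha, one_pow] at hx1
    exact hx1 rfl
  refine ⟨?_, hn⟩
  rw [← pow_mul] at hx2
  have h1 : 2 ^ n ∣ t * 2 := by rw [← ha]; exact orderOf_dvd_of_pow_eq_one hx2
  have h2 : 2 ^ n = 2 ^ (n - 1) * 2 := by rw [← pow_succ]; congr 1; omega
  rw [h2] at h1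
  have h3 : 2 ^ (n - 1) ∣ t := Nat.dvd_of_mul_dvd_mul_right (by norm_num) h1
  obtain ⟨s, rfl⟩ := h3
  rw [pow_mul]
  rw [pow_mul] at hx1
  set z := a ^ (2 ^ (n - 1)) with hz
  have hz2 : z ^ 2 = 1 := by
    rw [hz, ← pow_mul, ← h2, ← ha, pow_orderOf_eq_one]
  rcases Nat.even_or_odd' s with ⟨r, hr | hr⟩
  · rw [hr, pow_mul, hz2, one_pow] at hx1
    exact absurd rfl hx1
  · rw [hr, pow_succ, pow_mul, hz2, one_pow, one_mul]

/-- The abelian case: a finite abelian `2`-group in product form with an automorphism leaving no subgroup of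
index `2` invariant is homocyclic of rank `2`. -/
theorem homocyclic_of_noInv {X : Type*} [Group X] [Finite X] (hX : IsPGroup 2 X)
    (hab : ∀ x y : X, x * y = y * x) (a b : X) (hgen : ∀ x : X, ∃ i j : ℕ, x = a ^ i * b ^ j)
    (α : MulAut X) (hNI : ∀ T : Subgroup X, T.index = 2 → (∀ x ∈ T, α x ∈ T) → False) :
    ∃ n : ℕ, Nonempty (X ≃* Multiplicative (ZMod (2 ^ n)) × Multiplicative (ZMod (2 ^ n))) := by
  classical
  -- the subgroups of elements killed by m
  let Tm : ℕ → Subgroup X := fun m =>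
    { carrier := {x | x ^ m = 1}
      mul_mem' := by
        intro x y hx hy
        show (x * y) ^ m = 1
        rw [(show Commute x y from hab x y).mul_pow, hx, hy, one_mul]
      one_mem' := one_pow m
      inv_mem' := by
        intro x hx
        show x⁻¹ ^ m = 1
        rw [inv_pow, hx, inv_one] }
  have hTm : ∀ m x, x ∈ Tm m ↔ x ^ m = 1 := fun m x => Iff.rfl
  have hTminv : ∀ m, ∀ x ∈ Tm m, α x ∈ Tm m := by
    intro m x hx
    rw [hTm] at hx ⊢
    rw [← map_pow, hx, map_one]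
  have hord : ∀ x : X, ∃ k : ℕ, orderOf x = 2 ^ k := by
    intro x
    obtain ⟨k, hk⟩ := hX x
    obtain ⟨i, _, hi⟩ := (Nat.dvd_prime_pow Nat.prime_two).1 (orderOf_dvd_of_pow_eq_one hk)
    exact ⟨i, hi⟩
  -- key: if orderOf u = 2^k < orderOf v = 2^l and X = ⟨u⟩⟨v⟩ then contradiction
  have hkey : ∀ (u v : X) (k l : ℕ), orderOf u = 2 ^ k → orderOf v = 2 ^ l →
      (∀ x : X, ∃ i j : ℕ, x = u ^ i * v ^ j) → k < l → False := by
    intro u v k l hu hv hg hkl
    have hl : 2 ^ l = 2 ^ (l - 1) * 2 := by rw [← pow_succ]; congr 1; omega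
    have huT : u ∈ Tm (2 ^ (l - 1)) := by
      rw [hTm]
      apply orderOf_dvd_iff_pow_eq_one.1
      rw [hu]
      exact pow_dvd_pow 2 (by omega)
    have hvT : v ∉ Tm (2 ^ (l - 1)) := by
      rw [hTm]
      intro h
      have h1 := orderOf_dvd_of_pow_eq_one h
      rw [hv] at h1
      have h2 := Nat.le_of_dvd (by positivity) h1
      have h3 : 2 ^ (l - 1) < 2 ^ l := Nat.pow_lt_pow_right (by norm_num) (by omega)
      omega
    have hv2T : v ^ 2 ∈ Tm (2 ^ (l - 1)) := by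
      rw [hTm, ← pow_mul, mul_comm, ← hl, ← hv, pow_orderOf_eq_one]
    apply hNI (Tm (2 ^ (l - 1))) ?_ (hTminv _)
    apply index_eq_two_of_cover _ v hvT
    intro x
    obtain ⟨i, j, rfl⟩ := hg x
    rcases Nat.even_or_odd' j with ⟨r, hr | hr⟩
    · left
      apply (Tm _).mul_mem ((Tm _).pow_mem huT i)
      rw [hr, pow_mul]
      exact (Tm _).pow_mem hv2T r
    · right
      have h1 : u ^ i * v ^ j * v⁻¹ = u ^ i * (v ^ 2) ^ r := by
        rw [hr, pow_succ, pow_mul]; group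
      rw [h1]
      exact (Tm _).mul_mem ((Tm _).pow_mem huT i) ((Tm _).pow_mem hv2T r)
  obtain ⟨k, hk⟩ := hord a
  obtain ⟨l, hl⟩ := hord b
  have hgen' : ∀ x : X, ∃ i j : ℕ, x = b ^ i * a ^ j := by
    intro x
    obtain ⟨i, j, rfl⟩ := hgen x
    exact ⟨j, i, hab _ _⟩
  have hkl : k = l := by
    rcases lt_trichotomy k l with h | h | h
    · exact (hkey a b k l hk hl hgen h).elim
    · exact h
    · exact (hkey b a l k hl hk hgen' h).elim
  subst hkl
  -- disjointness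
  have hdisj : Subgroup.zpowers a ⊓ Subgroup.zpowers b = ⊥ := by
    rw [eq_bot_iff]
    intro w hw
    rw [Subgroup.mem_bot]
    by_contra hw1
    obtain ⟨hwa, hwb⟩ := Subgroup.mem_inf.1 hw
    -- an involution z in zpowers w
    obtain ⟨s, hs⟩ := hord w
    have hs1 : 1 ≤ s := by
      by_contra hc
      push Not at hc
      have hs0 : s = 0 := by omega
      rw [hs0, pow_zero, orderOf_eq_one_iff] at hs
      exact hw1 hs
    set z := w ^ (2 ^ (s - 1)) with hz
    have hs2 : 2 ^ s = 2 ^ (s - 1) * 2 := by rw [← pow_succ]; congr 1; omega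
    have hz2 : z ^ 2 = 1 := by
      rw [hz, ← pow_mul, ← hs2, ← hs, pow_orderOf_eq_one]
    have hz1 : z ≠ 1 := by
      intro h
      have h1 := orderOf_dvd_of_pow_eq_one h
      rw [hs] at h1
      have h2 := Nat.le_of_dvd (by positivity) h1
      have h3 : 2 ^ (s - 1) < 2 ^ s := Nat.pow_lt_pow_right (by norm_num) (by omega)
      omega
    have hza : z ∈ Subgroup.zpowers a := (Subgroup.zpowers a).pow_mem hwa _
    have hzb : z ∈ Subgroup.zpowers b := (Subgroup.zpowers b).pow_mem hwb _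
    obtain ⟨hza', hk1⟩ := eq_pow_of_sq_eq_one hk hza hz2 hz1
    obtain ⟨hzb', _⟩ := eq_pow_of_sq_eq_one hl hzb hz2 hz1
    have hk2 : 2 ^ k = 2 ^ (k - 1) * 2 := by rw [← pow_succ]; congr 1; omega
    have hbT : b ∉ Tm (2 ^ (k - 1)) := by
      rw [hTm, ← hzb']
      exact hz1
    apply hNI (Tm (2 ^ (k - 1))) ?_ (hTminv _)
    apply index_eq_two_of_cover _ b hbT
    intro x
    obtain ⟨i, j, rfl⟩ := hgen x
    have hxp : (a ^ i * b ^ j) ^ (2 ^ (k - 1)) = z ^ (i + j) := by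
      rw [(show Commute (a ^ i) (b ^ j) from hab _ _).mul_pow, ← pow_mul, ← pow_mul, mul_comm i,
        mul_comm j, pow_mul, pow_mul, ← hza', ← hzb', pow_add]
    rcases Nat.even_or_odd' (i + j) with ⟨r, hr | hr⟩
    · left
      rw [hTm, hxp, hr, pow_mul, hz2, one_pow]
    · right
      rw [hTm, (show Commute (a ^ i * b ^ j) b⁻¹ from hab _ _).mul_pow, hxp, inv_pow, ← hzb', hr,
        pow_succ, pow_mul, hz2, one_pow, one_mul, mul_inv_cancel]
  -- the isomorphism
  let φ : ↥(Subgroup.zpowers a) × ↥(Subgroup.zpowers b) →* X :=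
    MonoidHom.noncommCoprod (Subgroup.zpowers a).subtype (Subgroup.zpowers b).subtype
      (fun m n => hab _ _)
  have hφ : ∀ u v, φ (u, v) = (u : X) * (v : X) := fun u v => rfl
  have hφinj : Function.Injective φ := by
    rw [injective_iff_map_eq_one]
    rintro ⟨u, v⟩ huv
    rw [hφ] at huv
    have h1 : (u : X) = (v : X)⁻¹ := eq_inv_of_mul_eq_one_left huv
    have h2 : (u : X) ∈ Subgroup.zpowers a ⊓ Subgroup.zpowers b :=
      Subgroup.mem_inf.2 ⟨u.2, by rw [h1]; exact (Subgroup.zpowers b).inv_mem v.2⟩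
    rw [hdisj, Subgroup.mem_bot] at h2
    have h3 : (v : X) = 1 := by
      rw [h2] at h1
      exact inv_eq_one.1 h1.symm
    exact Prod.ext (Subtype.ext h2) (Subtype.ext h3)
  have hφsurj : Function.Surjective φ := by
    intro x
    obtain ⟨i, j, rfl⟩ := hgen x
    refine ⟨(⟨a ^ i, Subgroup.pow_mem _ (Subgroup.mem_zpowers a) i⟩,
      ⟨b ^ j, Subgroup.pow_mem _ (Subgroup.mem_zpowers b) j⟩), ?_⟩
    rw [hφ]
  obtain ⟨e₁⟩ := nonempty_mulEquiv_zmod_of_isCyclic (H := ↥(Subgroup.zpowers a)) (2 ^ k)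
    (by rw [Nat.card_zpowers, hk])
  obtain ⟨e₂⟩ := nonempty_mulEquiv_zmod_of_isCyclic (H := ↥(Subgroup.zpowers b)) (2 ^ k)
    (by rw [Nat.card_zpowers, hl])
  exact ⟨k, ⟨(MulEquiv.ofBijective φ ⟨hφinj, hφsurj⟩).symm.trans (MulEquiv.prodCongr e₁ e₂)⟩⟩

end Cfsg.Agent.Helper32
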