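import Mathlib
import Cfsg.Agent.Helper32.MetaTwoB
import Cfsg.Agent.Helper32.OmegaDetect

set_option autoImplicit false

namespace Cfsg.Agent.Helper32

open Subgroup

theorem pow_gcd_mem32 {X : Type*} [Group X] (H : Subgroup X) (x : X) (m n : ℕ) (hm : x ^ m ∈ H)
    (hn : x ^ n ∈ H) : x ^ (Nat.gcd m n) ∈ H := by
  have h0 := Nat.gcd_eq_gcd_ab m n
  have h1 : x ^ ((Nat.gcd m n : ℕ) : ℤ) = (x ^ m) ^ (Nat.gcdA m n) * (x ^ n) ^ (Nat.gcdB m n) := by
    rw [h0, zpow_add, zpow_mul, zpow_mul, zpow_natCast, zpow_natCast]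
  rw [zpow_natCast] at h1
  rw [h1]
  exact H.mul_mem (H.zpow_mem hm _) (H.zpow_mem hn _)

theorem zpow_eq_one_or_self32 {X : Type*} [Group X] (z : X) (hz : z ^ 2 = 1) (k : ℤ) :
    z ^ k = 1 ∨ z ^ k = z := by
  rcases Int.even_or_odd' k with ⟨m, hm | hm⟩
  · left
    rw [hm, zpow_mul, zpow_ofNat, hz, one_zpow]
  · right
    rw [hm, zpow_add, zpow_mul, zpow_ofNat, hz, one_zpow, one_mul, zpow_one]

/-- The nonabelian case: the derived subgroup has index `4`. -/
theorem commutator_index_four_of_noInv {X : Type*} [Group X] [Finite X] (hX : IsPGroup 2 X)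
    (a b : X) (hgen : ∀ x : X, ∃ i j : ℕ, x = a ^ i * b ^ j)
    (hXN : commutator X ≤ Subgroup.zpowers a) (hna : ¬ ∀ x y : X, x * y = y * x)
    (α : MulAut X) (hNI : ∀ T : Subgroup X, T.index = 2 → (∀ x ∈ T, α x ∈ T) → False) :
    (commutator X).index = 4 := by
  classical
  have hchar : Subgroup.Characteristic (_root_.commutator X) := by
    rw [_root_.commutator_def]
    infer_instance
  have hX'aut : ∀ (β : MulAut X), ∀ y ∈ commutator X, β y ∈ commutator X := by
    intro β y hy
    have h1 := hchar.fixed β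
    have h2 : y ∈ (commutator X).comap β.toMonoidHom := by rw [h1]; exact hy
    exact h2
  have comm_mem : ∀ x y : X, y⁻¹ * x⁻¹ * y * x ∈ commutator X := by
    intro x y
    have h := Subgroup.commutator_mem_commutator (H₁ := (⊤ : Subgroup X)) (H₂ := ⊤)
      (Subgroup.mem_top y⁻¹) (Subgroup.mem_top x⁻¹)
    rw [commutatorElement_def] at h
    rw [_root_.commutator_def]
    simpa using h
  have hgen_mem : ∀ (T : Subgroup X), a ∈ T → b ∈ T → T = ⊤ := by
    intro T ha hb
    rw [eq_top_iff]
    intro x _
    obtain ⟨i, j, rfl⟩ := hgen x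
    exact T.mul_mem (T.pow_mem ha i) (T.pow_mem hb j)
  -- (b) the derived subgroup is central
  have hcent : ∀ g : X, ∀ y ∈ commutator X, g * y = y * g := by
    set C : Subgroup X := Subgroup.centralizer ((commutator X : Subgroup X) : Set X) with hC
    have haC : a ∈ C := by
      rw [hC, Subgroup.mem_centralizer_iff]
      intro y hy
      obtain ⟨k, rfl⟩ := Subgroup.mem_zpowers_iff.1 (hXN hy)
      exact (Commute.zpow_self a k).eq
    have hCtop : C = ⊤ := by
      by_contra hCne
      have hbC : b ∉ C := fun hb => hCne (hgen_mem C haC hb)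
      set T : Subgroup X := C ⊔ sqSub X with hT
      have hTne : T ≠ ⊤ := fun h => hCne (eq_top_of_sup_sqSub hX C h)
      have haT : a ∈ T := Subgroup.mem_sup_left haC
      have hbT : b ∉ T := fun hb => hTne (hgen_mem T haT hb)
      have hidx : T.index = 2 := by
        apply index_eq_two_of_cover T b hbT
        intro x
        obtain ⟨i, j, rfl⟩ := hgen x
        rcases Nat.even_or_odd' j with ⟨r, hr | hr⟩
        · left
          rw [hr]
          exact T.mul_mem (T.pow_mem haT i) (Subgroup.mem_sup_right (pow_two_mul_mem_sqSub b r))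
        · right
          have h1 : a ^ i * b ^ j * b⁻¹ = a ^ i * b ^ (2 * r) := by
            rw [hr, pow_succ]; group
          rw [h1]
          exact T.mul_mem (T.pow_mem haT i) (Subgroup.mem_sup_right (pow_two_mul_mem_sqSub b r))
      have hCinv : ∀ x ∈ C, α x ∈ C := by
        intro x hx
        rw [hC, Subgroup.mem_centralizer_iff] at hx ⊢
        intro y hy
        have h1 := hx (α.symm y) (hX'aut α.symm y hy)
        have h2 := congrArg α h1
        rw [map_mul, map_mul, MulEquiv.apply_symm_apply] at h2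
        exact h2
      have hTinv : ∀ x ∈ T, α x ∈ T := by
        intro x hx
        have h1 : T.map α.toMonoidHom ≤ T := by
          rw [hT, Subgroup.map_sup]
          apply sup_le_sup
          · rintro _ ⟨y, hy, rfl⟩
            exact hCinv y hy
          · rintro _ ⟨y, hy, rfl⟩
            exact sqSub_aut α y hy
        exact h1 ⟨x, hx, rfl⟩
      exact hNI T hidx hTinv
    intro g y hy
    have hg : g ∈ C := by rw [hCtop]; exact Subgroup.mem_top g
    rw [hC, Subgroup.mem_centralizer_iff] at hg
    exact (hg y hy).symm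
  -- the class two power formula
  have powform : ∀ (x y : X) (n : ℕ),
      (x * y) ^ n = x ^ n * y ^ n * (y⁻¹ * x⁻¹ * y * x) ^ (n.choose 2) := by
    intro x y n
    apply mul_pow_class_two32 x y (y⁻¹ * x⁻¹ * y * x) (by group)
    · exact (hcent x _ (comm_mem x y)).symm
    · exact (hcent y _ (comm_mem x y)).symm
  -- (c) squares lie in the derived subgroup
  have hsq : ∀ x : X, x ^ 2 ∈ commutator X := by
    have hex : ∃ n : ℕ, ∀ x : X, x ^ (2 ^ n) ∈ commutator X := by
      obtain ⟨k, hk⟩ := (IsPGroup.iff_card).1 hX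
      exact ⟨k, fun x => by rw [← hk, pow_card_eq_one']; exact Subgroup.one_mem _⟩
    obtain ⟨n₀, hP, hmin⟩ : ∃ n₀ : ℕ, (∀ x : X, x ^ (2 ^ n₀) ∈ commutator X) ∧
        ∀ m < n₀, ¬ ∀ x : X, x ^ (2 ^ m) ∈ commutator X :=
      ⟨Nat.find hex, Nat.find_spec hex, fun m hm => Nat.find_min hex hm⟩
    by_cases hn1 : n₀ ≤ 1
    · intro x
      have h1 := hP x
      have h2 : n₀ = 0 ∨ n₀ = 1 := by omega
      rcases h2 with h2 | h2
      · rw [h2, pow_zero, pow_one] at h1
        exact Subgroup.pow_mem _ h1 2
      · rw [h2, pow_one] at h1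
        exact h1
    · exfalso
      push Not at hn1
      have hmin' := hmin (n₀ - 1) (by omega)
      push Not at hmin'
      obtain ⟨x₀, hx₀⟩ := hmin'
      set h : ℕ := 2 ^ (n₀ - 1) with hh
      have he : 2 ^ n₀ = h * 2 := by rw [hh, ← pow_succ]; congr 1; omega
      let T₁ : Subgroup X :=
        { carrier := {x | x ^ h ∈ commutator X}
          mul_mem' := by
            intro x y hx hy
            show (x * y) ^ h ∈ commutator X
            rw [powform]
            exact Subgroup.mul_mem _ (Subgroup.mul_mem _ hx hy) (Subgroup.pow_mem _ (comm_mem x y) _)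
          one_mem' := by
            show (1 : X) ^ h ∈ commutator X
            rw [one_pow]; exact Subgroup.one_mem _
          inv_mem' := by
            intro x hx
            show x⁻¹ ^ h ∈ commutator X
            rw [inv_pow]; exact Subgroup.inv_mem _ hx }
      have hT₁ : ∀ x, x ∈ T₁ ↔ x ^ h ∈ commutator X := fun x => Iff.rfl
      have hT₁inv : ∀ x ∈ T₁, α x ∈ T₁ := by
        intro x hx
        rw [hT₁] at hx ⊢
        rw [← map_pow]
        exact hX'aut α _ hx
      have hb2 : b ^ 2 ∈ T₁ := by
        rw [hT₁, ← pow_mul, mul_comm, ← he]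
        exact hP b
      have ha_h : a ^ h ∉ commutator X := by
        intro haT
        have haT₁ : a ∈ T₁ := (hT₁ a).2 haT
        have hbT₁ : b ∉ T₁ := by
          intro hb
          have := hgen_mem T₁ haT₁ hb
          apply hx₀
          rw [← hT₁, this]
          exact Subgroup.mem_top _
        apply hNI T₁ ?_ hT₁inv
        apply index_eq_two_of_cover T₁ b hbT₁
        intro x
        obtain ⟨i, j, rfl⟩ := hgen x
        rcases Nat.even_or_odd' j with ⟨r, hr | hr⟩
        · left
          rw [hr, pow_mul]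
          exact T₁.mul_mem (T₁.pow_mem haT₁ i) (T₁.pow_mem hb2 r)
        · right
          have h1 : a ^ i * b ^ j * b⁻¹ = a ^ i * (b ^ 2) ^ r := by
            rw [hr, pow_succ, pow_mul]; group
          rw [h1]
          exact T₁.mul_mem (T₁.pow_mem haT₁ i) (T₁.pow_mem hb2 r)
      have ha_e : a ^ (2 ^ n₀) ∈ commutator X := hP a
      set g : X := a ^ (2 ^ n₀) with hg
      have hgenX' : commutator X ≤ Subgroup.zpowers g := by
        intro y hy
        obtain ⟨t, rfl⟩ := exists_pow_of_mem_zpowers (hXN hy)
        have hgm : a ^ (Nat.gcd t (2 ^ n₀)) ∈ commutator X := pow_gcd_mem32 _ a t (2 ^ n₀) hy ha_e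
        obtain ⟨i, hi, hgi⟩ := (Nat.dvd_prime_pow Nat.prime_two).1 (Nat.gcd_dvd_right t (2 ^ n₀))
        by_cases hin : i = n₀
        · have hdvd : 2 ^ n₀ ∣ t := by
            have := Nat.gcd_dvd_left t (2 ^ n₀)
            rw [hgi, hin] at this
            exact this
          obtain ⟨s, rfl⟩ := hdvd
          rw [pow_mul]
          exact Subgroup.pow_mem _ (Subgroup.mem_zpowers _) s
        · exfalso
          apply ha_h
          have h2 : h = 2 ^ i * 2 ^ (n₀ - 1 - i) := by
            rw [hh, ← pow_add]; congr 1; omega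
          rw [h2, pow_mul, ← hgi]
          exact Subgroup.pow_mem _ hgm _
      have hg1 : g ≠ 1 := by
        intro h1
        apply hna
        intro x y
        have h2 := hgenX' (comm_mem x y)
        rw [h1, Subgroup.zpowers_one_eq_bot, Subgroup.mem_bot] at h2
        have h3 : y * x = x * y * (y⁻¹ * x⁻¹ * y * x) := by group
        rw [h2, mul_one] at h3
        exact h3.symm
      obtain ⟨r, hr⟩ : ∃ r : ℕ, orderOf g = 2 ^ r := by
        obtain ⟨k, hk⟩ := hX g
        obtain ⟨i, _, hi⟩ := (Nat.dvd_prime_pow Nat.prime_two).1 (orderOf_dvd_of_pow_eq_one hk)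
        exact ⟨i, hi⟩
      have hr1 : 1 ≤ r := by
        by_contra hc
        push Not at hc
        have hr0 : r = 0 := by omega
        rw [hr0, pow_zero, orderOf_eq_one_iff] at hr
        exact hg1 hr
      have hr2 : 2 ^ r = 2 ^ (r - 1) * 2 := by rw [← pow_succ]; congr 1; omega
      have hexp : ∀ y ∈ commutator X, y ^ (2 ^ r) = 1 := by
        intro y hy
        obtain ⟨k, rfl⟩ := Subgroup.mem_zpowers_iff.1 (hgenX' hy)
        rw [← zpow_natCast, ← zpow_mul, mul_comm, zpow_mul, zpow_natCast, ← hr, pow_orderOf_eq_one,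
          one_zpow]
      set M : ℕ := 2 ^ n₀ * 2 ^ (r - 1) with hM
      have hchoose : 2 ^ r ∣ M.choose 2 := by
        have h4 : 2 ^ n₀ = 4 * 2 ^ (n₀ - 2) := by
          have : n₀ = 2 + (n₀ - 2) := by omega
          conv_lhs => rw [this, pow_add]
          norm_num
        have hM2 : M = 2 * (2 ^ r * 2 ^ (n₀ - 2)) := by
          rw [hM, h4, hr2]; ring
        rw [Nat.choose_two_right, hM2, mul_assoc 2, Nat.mul_div_cancel_left _ (by norm_num : 0 < 2),
          mul_assoc]
        exact Dvd.intro _ rfl
      let ψ : X →* X :=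
        { toFun := fun x => x ^ M
          map_one' := one_pow M
          map_mul' := by
            intro x y
            show (x * y) ^ M = x ^ M * y ^ M
            rw [powform]
            obtain ⟨d, hd⟩ := hchoose
            rw [hd, pow_mul _ (2 ^ r) d, hexp _ (comm_mem x y), one_pow, mul_one] }
      have hψ : ∀ x, ψ x = x ^ M := fun x => rfl
      set z : X := g ^ (2 ^ (r - 1)) with hz
      have hz2 : z ^ 2 = 1 := by
        rw [hz, ← pow_mul, ← hr2, ← hr, pow_orderOf_eq_one]
      have hz1 : z ≠ 1 := by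
        intro h1
        have h2 := orderOf_dvd_of_pow_eq_one h1
        rw [hr] at h2
        have h3 := Nat.le_of_dvd (by positivity) h2
        have h4 : 2 ^ (r - 1) < 2 ^ r := Nat.pow_lt_pow_right (by norm_num) (by omega)
        omega
      have hψa : ψ a = z := by
        rw [hψ, hM, pow_mul]
      have hψx : ∀ x, ψ x = 1 ∨ ψ x = z := by
        intro x
        rw [hψ, hM, pow_mul]
        obtain ⟨k, hk⟩ := Subgroup.mem_zpowers_iff.1 (hgenX' (hP x))
        rw [← hk, ← zpow_natCast, ← zpow_mul, mul_comm, zpow_mul, zpow_natCast, ← hz]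
        exact zpow_eq_one_or_self32 z hz2 k
      have haT : a ∉ ψ.ker := by
        rw [MonoidHom.mem_ker, hψa]
        exact hz1
      apply hNI ψ.ker ?_ ?_
      · apply index_eq_two_of_cover ψ.ker a haT
        intro x
        rcases hψx x with h1 | h1
        · left
          exact MonoidHom.mem_ker.2 h1
        · right
          rw [MonoidHom.mem_ker, map_mul, map_inv, h1, hψa, mul_inv_cancel]
      · intro x hx
        rw [MonoidHom.mem_ker, hψ] at hx ⊢
        rw [← map_pow, hx, map_one]
  -- (d) the index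
  have hF : sqSub X ≤ commutator X := by
    rw [sqSub, Subgroup.closure_le]
    rintro _ ⟨x, rfl⟩
    exact hsq x
  have hdvd : (commutator X).index ∣ (sqSub X).index := Subgroup.index_dvd_of_le hF
  have hne1 : (commutator X).index ≠ 1 := by
    intro h1
    have htop := Subgroup.index_eq_one.1 h1
    apply hna
    intro x y
    have hx : x ∈ Subgroup.zpowers a := hXN (by rw [htop]; exact Subgroup.mem_top x)
    have hy : y ∈ Subgroup.zpowers a := hXN (by rw [htop]; exact Subgroup.mem_top y)
    obtain ⟨k, rfl⟩ := Subgroup.mem_zpowers_iff.1 hx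
    obtain ⟨l, rfl⟩ := Subgroup.mem_zpowers_iff.1 hy
    exact (Commute.zpow_zpow_self a k l).eq
  have hne2 : (commutator X).index ≠ 2 := by
    intro h2
    exact hNI (commutator X) h2 (hX'aut α)
  rcases sqSub_index hX a b hgen with h | h | h
  · rw [h] at hdvd
    exact absurd (Nat.dvd_one.1 hdvd) hne1
  · rw [h] at hdvd
    rcases (Nat.dvd_prime Nat.prime_two).1 hdvd with h1 | h1
    · exact absurd h1 hne1
    · exact absurd h1 hne2
  · rw [h] at hdvd
    have h4 : (4 : ℕ) = 2 ^ 2 := by norm_num
    rw [h4] at hdvd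
    obtain ⟨i, hi, hgi⟩ := (Nat.dvd_prime_pow Nat.prime_two).1 hdvd
    interval_cases i
    · exact absurd hgi hne1
    · exact absurd hgi hne2
    · rw [hgi]; norm_num

end Cfsg.Agent.Helper32
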