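import Mathlib
import Cfsg.Prelude.Def_Local
import Cfsg.Agent.Helper24.HallHigman
import Cfsg.Agent.Helper35.Coprime
import Cfsg.Agent.Helper35.CoprimeGen
import Cfsg.Agent.Helper39.ShawCount
import Cfsg.Agent.Helper47.ShawP4
import Cfsg.Agent.Helper52.ShawP6
import Cfsg.Agent.Helper52.ShawP16
import Cfsg.Agent.Helper52.ShawP18
import Cfsg.Agent.Helper66.ShawFix
import Cfsg.Agent.Helper66.ShawEnd
import Cfsg.Agent.Helper67.ShawP14
import Cfsg.Agent.Helper67.ShawP15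

set_option autoImplicit false

namespace Cfsg.Agent.Helper32.Shaw

open Subgroup

universe u

variable {G : Type u} [Group G] [Finite G]

/-- P8: coprime fixed point in an invariant coset of index two. -/
theorem shaw_cop (X X₁ B : Subgroup G) (hX : IsPGroup 2 X) (hle : X₁ ≤ X)
    (hidx : ∀ x ∈ X, ∀ y ∈ X, x ∉ X₁ → y ∉ X₁ → x⁻¹ * y ∈ X₁) (hne : ∃ x ∈ X, x ∉ X₁)
    (hBodd : Odd (Nat.card B)) (hBX : ∀ b ∈ B, ∀ x ∈ X, b * x * b⁻¹ ∈ X)
    (hBX₁ : ∀ b ∈ B, ∀ x ∈ X₁, b * x * b⁻¹ ∈ X₁) :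
    ∃ s ∈ X, s ∉ X₁ ∧ ∀ b ∈ B, b * s = s * b := by
  classical
  haveI : Fact (Nat.Prime 2) := ⟨Nat.prime_two⟩
  obtain ⟨x, hxX, hx1⟩ := hne
  have hX₁ : IsPGroup 2 X₁ := hX.to_le hle
  have hcop : (Nat.card B).Coprime (Nat.card X₁) := by
    obtain ⟨k, hk⟩ := IsPGroup.iff_card.mp hX₁
    rw [hk]
    exact Nat.Coprime.pow_right _ (Nat.coprime_two_right.mpr hBodd)
  have hsolv : Group.IsSolvable X₁ := by
    haveI := hX₁.isNilpotent
    infer_instance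
  obtain ⟨c, hc, hcn⟩ := Cfsg.Agent.Helper35.exists_fixed_in_coset
    (Cfsg.Agent.Helper35.le_normalizer_of_forall_conj_mem hBX₁) hcop (Or.inr hsolv) x
    (fun a ha => by
      have h1 : a * x * a⁻¹ ∈ X := hBX a ha x hxX
      have h2 : a * x * a⁻¹ ∉ X₁ := fun h => hx1 (by
        have := hBX₁ a⁻¹ (B.inv_mem ha) _ h
        simpa [mul_assoc] using this)
      have := hidx x hxX _ h1 hx1 h2
      simpa [mul_assoc] using this)
  refine ⟨c, ?_, ?_, ?_⟩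
  · have : c = x * (x⁻¹ * c) := by group
    rw [this]; exact X.mul_mem hxX (hle hcn)
  · intro hc1
    apply hx1
    have : x = c * (x⁻¹ * c)⁻¹ := by group
    rw [this]; exact X₁.mul_mem hc1 (X₁.inv_mem hcn)
  · intro b hb
    exact (mem_centralizer_iff.mp hc b hb)


theorem shaw_zpow_invol {M : Type*} [Group M] (a : M) (ha : a * a = 1) :
    ∀ b ∈ Subgroup.zpowers a, b = 1 ∨ b = a := by
  intro b hb
  obtain ⟨k, rfl⟩ := Subgroup.mem_zpowers_iff.mp hb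
  have h2 : a ^ (2 : ℤ) = 1 := by
    rw [zpow_ofNat, pow_two]; exact ha
  rcases Int.emod_two_eq_zero_or_one k with h | h
  · left
    have : k = 2 * (k / 2) := by omega
    rw [this, zpow_mul, h2, one_zpow]
  · right
    have : k = 2 * (k / 2) + 1 := by omega
    rw [this, zpow_add, zpow_mul, h2, one_zpow, one_mul, zpow_one]

/-- a nontrivial `2`-element has a power which is an involution -/
theorem shaw_exists_invol_pow (s : G) (hs : ∃ k : ℕ, s ^ 2 ^ k = 1) (hs1 : s ≠ 1) :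
    ∃ j : ℕ, s ^ j ≠ 1 ∧ s ^ j * s ^ j = 1 := by
  classical
  have hk0 : Nat.find hs ≠ 0 := by
    intro h0
    have := Nat.find_spec hs
    rw [h0] at this
    simp at this
    exact hs1 this
  obtain ⟨m, hm⟩ := Nat.exists_eq_succ_of_ne_zero hk0
  refine ⟨2 ^ m, ?_, ?_⟩
  · exact Nat.find_min hs (by omega : m < Nat.find hs)
  · have := Nat.find_spec hs
    rw [hm, pow_succ, pow_mul, pow_two] at this
    exact this

theorem shaw_step3 (hsol : Group.IsSolvable G) (Z P : Subgroup G) [Z.Normal] [P.Normal]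
    (hZ2 : ∀ z ∈ Z, z * z = 1) (hinvol : ∀ x : G, x * x = 1 → x ∈ Z)
    (htr : ∀ x ∈ Z, ∀ y ∈ Z, x ≠ 1 → y ≠ 1 → ∃ g : G, g * x * g⁻¹ = y)
    (hfour : ∃ x ∈ Z, ∃ y ∈ Z, x ≠ 1 ∧ y ≠ 1 ∧ x ≠ y)
    (h2 : ∀ x : G, (∃ k : ℕ, x ^ 2 ^ k = 1) → x ∈ centralizer (Z : Set G))
    (hP : IsPGroup 2 P) (hPmax : ∀ K : Subgroup G, K.Normal → IsPGroup 2 K → K ≤ P)
    (hCP : centralizer (P : Set G) ≤ P)
    (x0 : G) (hx0 : ∃ k : ℕ, x0 ^ 2 ^ k = 1) : x0 ∈ P := by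
  classical
  haveI : Fact (Nat.Prime 2) := ⟨Nat.prime_two⟩
  obtain ⟨x1, hx1Z, y1, hy1Z, hx1, hy1, hxy1⟩ := hfour
  have hZnt : Z ≠ ⊥ := fun h => hx1 (by rw [h] at hx1Z; exact Subgroup.mem_bot.mp hx1Z)
  have hZgrp : IsPGroup 2 Z := by
    intro z
    refine ⟨1, ?_⟩
    apply Subtype.ext
    have := hZ2 z z.2
    simpa [pow_two] using this
  have hZP : Z ≤ P := hPmax Z inferInstance hZgrp
  have h2P : ∀ g ∈ P, ∃ k : ℕ, g ^ 2 ^ k = 1 := by
    intro g hg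
    obtain ⟨k, hk⟩ := hP ⟨g, hg⟩
    exact ⟨k, by simpa using congrArg Subtype.val hk⟩
  have hPC : P ≤ centralizer (Z : Set G) := fun g hg => h2 g (h2P g hg)
  have hcz : ∀ c ∈ centralizer (Z : Set G), ∀ z ∈ Z, c * z * c⁻¹ = z := by
    intro c hc z hz
    have := mem_centralizer_iff.mp hc z hz
    rw [← this, mul_inv_cancel_right]
  have hZc : ∀ z ∈ Z, ∀ g ∈ P, g * z = z * g := fun z hz g hg =>
    (mem_centralizer_iff.mp (hPC hg) z hz).symm
  by_contra hx0P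
  have hx0C : x0 ∈ centralizer (Z : Set G) := h2 x0 hx0
  -- the subgroup E
  obtain ⟨E, hEn, hE⟩ := Cfsg.Agent.Helper52.shaw_exists_E P Z hZP hZc
  haveI := hEn
  have hEP : E ≤ P := fun x hx => ((hE x).mp hx).1
  have hZE : Z ≤ E := by
    intro z hz
    rw [hE]
    refine ⟨hZP hz, ?_, ?_⟩
    · rw [hZ2 z hz]; exact Z.one_mem
    · intro g hg
      have := hZc z hz g hg
      have e : z⁻¹ * g⁻¹ * z * g = 1 := by
        rw [mul_assoc, ← this]; group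
      rw [e]; exact Z.one_mem
  have hsqE : ∀ x ∈ E, x * x ∈ Z := fun x hx => ((hE x).mp hx).2.1
  have hZcE : ∀ z ∈ Z, ∀ x ∈ E, x * z = z * x := fun z hz x hx => hZc z hz x (hEP hx)
  -- linearisation
  obtain ⟨V, instV, instVf, π, ρ, Q, hπs, hπ, hρ, hQ, hV2, hVc, hcardV⟩ :=
    Cfsg.Agent.Helper52.shaw_lin E Z hZE hsqE hZcE hZ2
  have hρQ : ∀ (g : G) (v : V), Q (ρ g v) = g * Q v * g⁻¹ := by
    intro g v
    obtain ⟨x, rfl⟩ := hπs v
    rw [hρ g x (hEn.conj_mem x x.2 g), hQ, hQ]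
    simp only []
    group
  have hQZ : ∀ v : V, Q v ∈ Z := by
    intro v
    obtain ⟨x, rfl⟩ := hπs v
    rw [hQ]; exact hsqE x x.2
  have hQone : Q 1 = 1 := by
    have := hQ 1
    rw [map_one] at this
    rw [this]; simp
  have hQ1 : ∀ v : V, Q v = Q 1 → v = 1 := by
    intro v hv
    rw [hQone] at hv
    obtain ⟨x, rfl⟩ := hπs v
    rw [hQ] at hv
    have hxZ : (x : G) ∈ Z := hinvol _ hv
    rw [← map_one π, hπ]
    simpa using Z.inv_mem hxZ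
  -- `ρ g = 1` as soon as `g` acts trivially on `E / Z`
  have hρ1 : ∀ g : G, (∀ x ∈ E, (g * x * g⁻¹)⁻¹ * x ∈ Z) → ρ g = 1 := by
    intro g hg
    ext v
    obtain ⟨x, rfl⟩ := hπs v
    rw [hρ g x (hEn.conj_mem x x.2 g), MulAut.one_apply, hπ]
    exact hg x x.2
  have hρ1' : ∀ g : G, ρ g = 1 → ∀ x ∈ E, (g * x * g⁻¹)⁻¹ * x ∈ Z := by
    intro g hg x hx
    have h1 : ρ g (π ⟨x, hx⟩) = π ⟨x, hx⟩ := by rw [hg, MulAut.one_apply]
    rw [hρ g ⟨x, hx⟩ (hEn.conj_mem x hx g), hπ] at h1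
    exact h1
  have hρP : ∀ g ∈ P, ρ g = 1 := by
    intro g hg
    apply hρ1
    intro x hx
    have h1 := ((hE x).mp hx).2.2 g⁻¹ (P.inv_mem hg)
    have e : (g * x * g⁻¹)⁻¹ * x = (x⁻¹ * g⁻¹⁻¹ * x * g⁻¹)⁻¹ := by group
    rw [e]; exact Z.inv_mem h1
  -- faithfulness
  haveI hCn : (centralizer (Z : Set G)).Normal := Subgroup.normal_centralizer
  have hfaith : ∀ c ∈ centralizer (Z : Set G), ρ c = 1 → c ∈ P := by
    intro c hc hρc
    have hKn : (centralizer (Z : Set G) ⊓ ρ.ker).Normal := inferInstance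
    have hK2 : IsPGroup 2 (centralizer (Z : Set G) ⊓ ρ.ker : Subgroup G) := by
      rintro ⟨k, hkC, hkρ⟩
      obtain ⟨a, b, hb, hab⟩ := Nat.exists_eq_two_pow_mul_odd (orderOf_pos k).ne'
      refine ⟨a, ?_⟩
      apply Subtype.ext
      simp only [SubgroupClass.coe_pow, OneMemClass.coe_one]
      have hu : Odd (orderOf (k ^ 2 ^ a)) := by
        have h1 : orderOf (k ^ 2 ^ a) = b := by
          rw [orderOf_pow' k (by positivity), hab, Nat.gcd_eq_right (dvd_mul_right _ _),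
            Nat.mul_div_cancel_left b (by positivity)]
        rw [h1]; exact hb
      have hkρ' : ρ (k ^ 2 ^ a) = 1 := by
        rw [map_pow, MonoidHom.mem_ker.mp hkρ, one_pow]
      have hkC' : k ^ 2 ^ a ∈ centralizer (Z : Set G) := Subgroup.pow_mem _ hkC _
      refine Cfsg.Agent.Helper52.shaw_faith P Z hP hZP hZc (fun x _ h => hinvol x h) hCP (k ^ 2 ^ a) hu ?_ ?_
      · intro z hz
        exact (mem_centralizer_iff.mp hkC' z hz).symm
      · intro x hxP hxx hxg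
        have hxE : x ∈ E := (hE x).mpr ⟨hxP, hxx, hxg⟩
        have hinv1 : ρ (k ^ 2 ^ a)⁻¹ = 1 := by rw [map_inv, hkρ', inv_one]
        have := hρ1' _ hinv1 x hxE
        have e : x⁻¹ * (k ^ 2 ^ a)⁻¹ * x * (k ^ 2 ^ a)
            = (((k ^ 2 ^ a)⁻¹ * x * (k ^ 2 ^ a)⁻¹⁻¹)⁻¹ * x)⁻¹ := by group
        rw [e]; exact Z.inv_mem this
    exact hPmax _ hKn hK2 ⟨hc, MonoidHom.mem_ker.mpr hρc⟩
  have hρx0 : ρ x0 ≠ 1 := fun h => hx0P (hfaith x0 hx0C h)
  -- a Sylow 2-subgroup containing x0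
  have hx0grp : IsPGroup 2 (Subgroup.zpowers x0) := by
    obtain ⟨k, hk⟩ := hx0
    rintro ⟨y, hy⟩
    obtain ⟨i, rfl⟩ := Subgroup.mem_zpowers_iff.mp hy
    refine ⟨k, ?_⟩
    apply Subtype.ext
    simp only [SubgroupClass.coe_pow, OneMemClass.coe_one]
    rw [← zpow_natCast, ← zpow_mul, mul_comm, zpow_mul, zpow_natCast, hk, one_zpow]
  obtain ⟨T, hT⟩ := hx0grp.exists_le_sylow
  have hx0T : x0 ∈ (T : Subgroup G) := hT (Subgroup.mem_zpowers x0)
  have hT2 : ∀ t ∈ (T : Subgroup G), ∃ k : ℕ, t ^ 2 ^ k = 1 := by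
    intro t ht
    obtain ⟨k, hk⟩ := T.isPGroup' ⟨t, ht⟩
    exact ⟨k, by simpa using congrArg Subtype.val hk⟩
  have hTC : ∀ t ∈ (T : Subgroup G), t ∈ centralizer (Z : Set G) := fun t ht => h2 t (hT2 t ht)
  have hTρ : ∀ t ∈ (T : Subgroup G), ∃ k : ℕ, (ρ t) ^ 2 ^ k = 1 := by
    intro t ht
    obtain ⟨k, hk⟩ := hT2 t ht
    exact ⟨k, by rw [← map_pow, hk, map_one]⟩
  -- the three cases for |E|
  rcases Cfsg.Agent.Helper39.shaw_count E Z (hP.to_le hEP) hZE hZcE hsqE (fun x _ h => hinvol x h) hZ2 hZnt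
      (fun g x hx => hEn.conj_mem x hx g) htr with hEZ | ⟨-, hinj2⟩ | ⟨hc3, hroot⟩
  · apply hρx0
    apply hρ1
    intro x hx
    rw [← hEZ]
    exact E.mul_mem (E.inv_mem (hEn.conj_mem x hx x0)) hx
  · apply hρx0
    apply hρ1
    intro x hx
    apply hinj2 _ (hEn.conj_mem x hx x0) _ hx
    have := hcz x0 hx0C (x * x) (hsqE x hx)
    rw [← this]; group
  -- main case
  obtain ⟨n, hn⟩ := IsPGroup.iff_card.mp hZgrp
  have h3 : 3 ≤ Nat.card Z := by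
    let f : Fin 3 → Z := ![1, ⟨x1, hx1Z⟩, ⟨y1, hy1Z⟩]
    have hf : Function.Injective f := by
      intro i j hij
      fin_cases i <;> fin_cases j <;> simp [f, Subtype.ext_iff] at hij ⊢
      · exact hx1 hij.symm
      · exact hy1 hij.symm
      · exact hx1 hij
      · exact hxy1 hij
      · exact hy1 hij
      · exact hxy1 hij.symm
    have := Nat.card_le_card_of_injective f hf
    simpa using this
  have hn2 : 2 ≤ n := by
    by_contra hlt
    have : n = 0 ∨ n = 1 := by omega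
    rcases this with h | h <;> rw [hn, h] at h3 <;> norm_num at h3
  have hcardV' : Nat.card V = (2 ^ n) ^ 2 := by
    rw [hc3, hn] at hcardV
    have e : (2 ^ n) ^ 3 = (2 ^ n) ^ 2 * 2 ^ n := by ring
    rw [e] at hcardV
    exact Nat.eq_of_mul_eq_mul_right (by positivity) hcardV
  have hrange : Nat.card (Set.range Q) = 2 ^ n := by
    have e : Set.range Q = (Z : Set G) := by
      ext z
      constructor
      · rintro ⟨v, rfl⟩; exact hQZ v
      · intro hz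
        obtain ⟨x, hxE, hxx⟩ := hroot z hz
        exact ⟨π ⟨x, hxE⟩, by rw [hQ]; exact hxx⟩
    rw [e, ← hn]; rfl
  obtain ⟨B, hBodd, hBT, hBtr⟩ := Cfsg.Agent.Helper67.shaw_setup Z h2 htr T
  have hQv1 : ∀ v : V, v ≠ 1 → Q v ≠ 1 := fun v hv h => hv (hQ1 v (by rw [hQone]; exact h))
  have hBtrV : ∀ v w : V, v ≠ 1 → w ≠ 1 → ∃ b ∈ B, Q (ρ b v) = Q w := by
    intro v w hv hw
    obtain ⟨b, hb, hbz⟩ := hBtr (Q v) (hQZ v) (Q w) (hQZ w) (hQv1 v hv) (hQv1 w hw)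
    exact ⟨b, hb, by rw [hρQ]; exact hbz⟩
  obtain ⟨hVp, hinjQ⟩ := Cfsg.Agent.Helper66.shaw_fix (Γ := G) Q n (by omega) hcardV' hrange hQ1 ρ (T : Subgroup G) B
    hTρ ⟨x0, hx0T, hρx0⟩ hBT
    (fun t ht v => by rw [hρQ]; exact hcz t (hTC t ht) _ (hQZ v))
    (fun b _ v w h => by rw [hρQ, hρQ, h]) hBtrV
  -- the abelian normal section U / P of odd order
  obtain ⟨U, hUn, -, hUC, hUP, hUab, hU2⟩ := Cfsg.Agent.Helper67.shaw_exists_U hsol P (centralizer (Z : Set G)) hP hPC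
    hPmax (fun h => hx0P (h hx0C))
  have hUc : ∀ a ∈ U, ∀ b ∈ U, ρ a * ρ b = ρ b * ρ a := by
    intro a ha b hb
    have h1 := hρP _ (hUab a ha b hb)
    rw [map_mul, map_mul, map_mul, map_inv, map_inv] at h1
    calc ρ a * ρ b = (ρ a * ρ b * (ρ a)⁻¹ * (ρ b)⁻¹) * (ρ b * ρ a) := by group
      _ = ρ b * ρ a := by rw [h1, one_mul]
  have hUodd : ∀ u ∈ U, ρ u * ρ u = 1 → ρ u = 1 := by
    intro u hu h
    have huu : ρ (u * u) = 1 := by rw [map_mul]; exact h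
    have huP : u * u ∈ P := hfaith _ (hUC (U.mul_mem hu hu)) huu
    exact hρP u (hU2 u hu ⟨1, by rw [pow_one, pow_two]; exact huP⟩)
  have hUnt : ∃ u ∈ U, ρ u ≠ 1 := by
    obtain ⟨u, hu, huP⟩ := SetLike.not_le_iff_exists.mp hUP
    exact ⟨u, hu, fun h => huP (hfaith u (hUC hu) h)⟩
  have hconjT : ∀ b ∈ B, ∀ t ∈ (T : Subgroup G), b⁻¹ * t * b ∈ (T : Subgroup G) := by
    intro b hb t ht
    have := hBT b⁻¹ (B.inv_mem hb) t ht
    simpa using this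
  have hBfix : ∀ b ∈ B, ∀ v : V, (∀ t ∈ (T : Subgroup G), ρ t v = v) →
      ∀ t ∈ (T : Subgroup G), ρ t (ρ b v) = ρ b v := by
    intro b hb v hv t ht
    have e : t * b = b * (b⁻¹ * t * b) := by group
    have h1 : ρ t (ρ b v) = ρ (t * b) v := by rw [map_mul, MulAut.mul_apply]
    rw [h1, e, map_mul, MulAut.mul_apply, hv _ (hconjT b hb t ht)]
  obtain ⟨t0, ht0T, ht0ne, ht0sq, ht0B⟩ := Cfsg.Agent.Helper66.shaw_end hVc hV2 ρ (T : Subgroup G) B U hTρ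
    ⟨x0, hx0T, hρx0⟩ hUc hUodd hUnt (fun t _ u hu => hUn.conj_mem u hu t)
    (fun b _ u hu => hUn.conj_mem u hu b) hBT
    (fun u hu v hv hv' => hinjQ (ρ u v) v hv' hv (by
      rw [hρQ]; exact hcz u (hUC hu) _ (hQZ v)))
    (fun v w hv hw hv1 hw1 => by
      obtain ⟨b, hb, hbz⟩ := hBtr (Q v) (hQZ v) (Q w) (hQZ w) (hQv1 v hv1) (hQv1 w hw1)
      exact ⟨b, hb, hinjQ (ρ b v) w (hBfix b hb v hv) hw (by rw [hρQ]; exact hbz)⟩)
    (by rw [hcardV', hVp])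
  -- the B-invariant pair X₁ < X of index 2
  have hzp := shaw_zpow_invol (ρ t0) ht0sq
  obtain ⟨s, hsX, hsX1, hsB⟩ := shaw_cop ((T : Subgroup G) ⊓ (Subgroup.zpowers (ρ t0)).comap ρ)
    ((T : Subgroup G) ⊓ ρ.ker) B (T.isPGroup'.to_le inf_le_left)
    (le_inf inf_le_left (fun x hx => by
      rw [Subgroup.mem_comap, MonoidHom.mem_ker.mp hx.2]; exact Subgroup.one_mem _))
    (fun x hx y hy hx1' hy1' => by
      refine Subgroup.mem_inf.mpr ⟨Subgroup.mul_mem _ (Subgroup.inv_mem _ hx.1) hy.1, ?_⟩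
      have hx2 : ρ x = ρ t0 := by
        rcases hzp _ (Subgroup.mem_comap.mp hx.2) with h | h
        · exact absurd ⟨hx.1, MonoidHom.mem_ker.mpr h⟩ hx1'
        · exact h
      have hy2 : ρ y = ρ t0 := by
        rcases hzp _ (Subgroup.mem_comap.mp hy.2) with h | h
        · exact absurd ⟨hy.1, MonoidHom.mem_ker.mpr h⟩ hy1'
        · exact h
      rw [MonoidHom.mem_ker, map_mul, map_inv, hx2, hy2, inv_mul_cancel])
    ⟨t0, ⟨ht0T, Subgroup.mem_comap.mpr (Subgroup.mem_zpowers _)⟩,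
      fun h => ht0ne (MonoidHom.mem_ker.mp h.2)⟩
    hBodd
    (fun b hb x hx => by
      refine Subgroup.mem_inf.mpr ⟨hBT b hb x hx.1, ?_⟩
      rw [Subgroup.mem_comap]
      rcases hzp _ (Subgroup.mem_comap.mp hx.2) with h | h
      · have : ρ (b * x * b⁻¹) = 1 := by
          rw [map_mul, map_mul, h, mul_one, ← map_mul, mul_inv_cancel, map_one]
        rw [this]; exact Subgroup.one_mem _
      · have : ρ (b * x * b⁻¹) = ρ t0 := by
          rw [← ht0B b hb, map_mul, map_mul, h, map_mul, map_mul]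
        rw [this]; exact Subgroup.mem_zpowers _)
    (fun b hb x hx => by
      refine Subgroup.mem_inf.mpr ⟨hBT b hb x hx.1, ?_⟩
      rw [MonoidHom.mem_ker, map_mul, map_mul, MonoidHom.mem_ker.mp hx.2, mul_one, ← map_mul,
        mul_inv_cancel, map_one])
  have hs1 : s ≠ 1 := fun h => hsX1 (by rw [h]; exact Subgroup.one_mem _)
  obtain ⟨j, hj1, hj2⟩ := shaw_exists_invol_pow s (hT2 s hsX.1) hs1
  have hzZ : s ^ j ∈ Z := hinvol _ hj2
  have hzB : ∀ b ∈ B, b * s ^ j * b⁻¹ = s ^ j := by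
    intro b hb
    have hc : Commute b (s ^ j) := Commute.pow_right (hsB b hb) j
    rw [hc.eq, mul_inv_cancel_right]
  obtain ⟨b, hb, hbx⟩ := hBtr (s ^ j) hzZ x1 hx1Z hj1 hx1
  obtain ⟨b', hb', hby⟩ := hBtr (s ^ j) hzZ y1 hy1Z hj1 hy1
  rw [hzB b hb] at hbx
  rw [hzB b' hb'] at hby
  exact hxy1 (hbx.symm.trans hby)

/-- **Core**: a finite solvable group with `O(G) = 1` having a normal elementary abelian
`2`-subgroup `Z` which contains all involutions, is permuted transitively, and has order at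
least `4`, has a normal Sylow `2`-subgroup. -/
theorem shaw_core0 (hsol : Group.IsSolvable G) (hO : Cfsg.pPrimeCore 2 G = ⊥) (Z : Subgroup G)
    [Z.Normal] (hZ2 : ∀ z ∈ Z, z * z = 1) (hinvol : ∀ x : G, x * x = 1 → x ∈ Z)
    (htr : ∀ x ∈ Z, ∀ y ∈ Z, x ≠ 1 → y ≠ 1 → ∃ g : G, g * x * g⁻¹ = y)
    (hfour : ∃ x ∈ Z, ∃ y ∈ Z, x ≠ 1 ∧ y ≠ 1 ∧ x ≠ y) :
    ∀ x : G, (∃ k : ℕ, x ^ 2 ^ k = 1) → x ∈ Cfsg.pCore 2 G := by
  classical
  haveI : Fact (Nat.Prime 2) := ⟨Nat.prime_two⟩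
  haveI := hsol
  have hZnt : Z ≠ ⊥ := by
    obtain ⟨x1, hx1Z, -, -, hx1, -, -⟩ := hfour
    exact fun h => hx1 (by rw [h] at hx1Z; exact Subgroup.mem_bot.mp hx1Z)
  have h2 := Cfsg.Agent.Helper47.shaw_step1 hsol Z hZ2 hZnt hinvol htr
  have hCP : centralizer (Cfsg.pCore 2 G : Set G) ≤ Cfsg.pCore 2 G :=
    Cfsg.Agent.Helper24.centralizer_pCore_le 2 (fun D hD hDc => by
      have := Cfsg.Agent.Helper24.le_pPrimeCore hD hDc
      rw [hO] at this
      exact le_bot_iff.mp this)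
  intro x0 hx0
  exact shaw_step3 hsol Z (Cfsg.pCore 2 G) hZ2 hinvol htr hfour h2
    (Cfsg.Agent.Helper24.isPGroup_pCore 2 G)
    (fun K hK hK2 => Cfsg.Agent.Helper24.le_pCore hK hK2) hCP x0 hx0

end Cfsg.Agent.Helper32.Shaw
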