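import Mathlib
import Cfsg.Prelude.Def_Transfer
import Cfsg.Agent.Helper2.PResidual

/-!
# Transfer by permutation signs on cosets

`cosetSign T : X →* ℤˣ` is the sign of the action on `X ⧸ T`.  If `u ^ (2 ^ k) = 1`, no conjugate
of `u ^ (2 ^ (k-1))` lies in `T` and `|X : T| = 2 ^ k * m` with `m` odd, then `cosetSign T u = -1`.
Iterating (`pow_eq_one_of_mem_pResidual`) gives `⟨u⟩ ∩ O²(X) = 1` when moreover `T ≤ O²(X)`.
-/

set_option autoImplicit false

namespace Cfsg.Agent.Helper32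

open Subgroup

universe u

theorem sign_eq_neg_one_of_pow {α : Type*} [Fintype α] [DecidableEq α] (σ : Equiv.Perm α)
    (k m : ℕ) (hk : 1 ≤ k) (hσ : σ ^ (2 ^ k) = 1) (hfpf : ∀ x, (σ ^ (2 ^ (k - 1))) x ≠ x)
    (hcard : Fintype.card α = 2 ^ k * m) (hm : Odd m) : Equiv.Perm.sign σ = -1 := by
  have hall : ∀ n ∈ σ.cycleType, n = 2 ^ k := by
    intro n hn
    have h1 : n ∣ 2 ^ k := (Equiv.Perm.dvd_of_mem_cycleType hn).trans (orderOf_dvd_of_pow_eq_one hσ)
    obtain ⟨j, hj, rfl⟩ := (Nat.dvd_prime_pow Nat.prime_two).1 h1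
    by_contra hne
    have hjk : j < k := lt_of_le_of_ne hj (fun h => hne (by rw [h]))
    obtain ⟨c, τ, hστ, hdisj, hcyc, hcard'⟩ := Equiv.Perm.mem_cycleType_iff.1 hn
    obtain ⟨x, hx⟩ : ∃ x, c x ≠ x := by
      obtain ⟨x, hx, -⟩ := hcyc
      exact ⟨x, hx⟩
    have hτx : τ x = x := (hdisj x).resolve_left hx
    have hdvd : 2 ^ j ∣ 2 ^ (k - 1) := pow_dvd_pow 2 (by omega)
    have hc : c ^ (2 ^ (k - 1)) = 1 := by
      apply orderOf_dvd_iff_pow_eq_one.1
      rw [hcyc.orderOf, hcard']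
      exact hdvd
    apply hfpf x
    rw [hστ, hdisj.commute.mul_pow, hc, one_mul]
    exact Equiv.Perm.pow_apply_eq_self_of_apply_eq_self hτx _
  have hsupp : σ.support = Finset.univ := by
    ext x
    simp only [Equiv.Perm.mem_support, Finset.mem_univ, iff_true]
    intro hx
    exact hfpf x (Equiv.Perm.pow_apply_eq_self_of_apply_eq_self hx _)
  have hsum : σ.cycleType.sum = 2 ^ k * m := by
    rw [Equiv.Perm.sum_cycleType, hsupp, Finset.card_univ, hcard]
  have hrep := Multiset.eq_replicate_of_mem hall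
  have hcardct : σ.cycleType.card = m := by
    have h2 : σ.cycleType.sum = σ.cycleType.card * 2 ^ k := by
      conv_lhs => rw [hrep]
      rw [Multiset.sum_replicate, smul_eq_mul]
    rw [hsum, mul_comm] at h2
    exact (Nat.eq_of_mul_eq_mul_right (by positivity) h2).symm
  rw [Equiv.Perm.sign_of_cycleType, hsum, hcardct]
  have heven : Even (2 ^ k * m) := by
    apply Even.mul_right
    exact (Nat.even_pow.2 ⟨even_two, by omega⟩)
  exact Odd.neg_one_pow (heven.add_odd hm)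

/-- The sign of the permutation action on the cosets of `T`. -/
noncomputable def cosetSign {X : Type*} [Group X] [Finite X] (T : Subgroup X) : X →* ℤˣ :=
  letI := Fintype.ofFinite (X ⧸ T)
  letI := Classical.decEq (X ⧸ T)
  (Equiv.Perm.sign).comp (MulAction.toPermHom X (X ⧸ T))

theorem cosetSign_eq_neg_one {X : Type*} [Group X] [Finite X] (T : Subgroup X) (u : X)
    (k m : ℕ) (hk : 1 ≤ k) (hu : u ^ (2 ^ k) = 1)
    (hconj : ∀ g : X, g⁻¹ * u ^ (2 ^ (k - 1)) * g ∉ T) (hidx : T.index = 2 ^ k * m)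
    (hm : Odd m) : cosetSign T u = -1 := by
  classical
  let _ := Fintype.ofFinite (X ⧸ T)
  have h : cosetSign T u = Equiv.Perm.sign (MulAction.toPermHom X (X ⧸ T) u) := by
    unfold cosetSign
    simp only [MonoidHom.comp_apply]
    congr!
  rw [h]
  apply sign_eq_neg_one_of_pow _ k m hk
  · rw [← map_pow, hu, map_one]
  · intro q
    obtain ⟨g, rfl⟩ := QuotientGroup.mk_surjective q
    rw [← map_pow, MulAction.toPermHom_apply, MulAction.toPerm_apply]
    intro heq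
    have h1 : ((u ^ (2 ^ (k - 1)) * g : X) : X ⧸ T) = (g : X ⧸ T) := heq
    rw [QuotientGroup.eq] at h1
    apply hconj g
    have e : g⁻¹ * u ^ (2 ^ (k - 1)) * g = ((u ^ (2 ^ (k - 1)) * g)⁻¹ * g)⁻¹ := by group
    rw [e]
    exact T.inv_mem h1
  · rw [← Nat.card_eq_fintype_card, ← Subgroup.index_eq_card, hidx]
  · exact hm

theorem pResidual_le_ker_units {X : Type*} [Group X] (f : X →* ℤˣ) :
    Cfsg.pResidual 2 X ≤ f.ker := by
  unfold Cfsg.pResidual
  rw [Subgroup.closure_le]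
  intro g hg
  have hg' : Nat.Coprime (orderOf g) 2 := hg
  rw [SetLike.mem_coe, MonoidHom.mem_ker]
  have h1 : f g ^ orderOf g = 1 := by rw [← map_pow, pow_orderOf_eq_one, map_one]
  have h2 : f g ^ 2 = 1 := by
    rcases Int.units_eq_one_or (f g) with h | h <;> rw [h] <;> simp
  have h3 : orderOf (f g) ∣ Nat.gcd (orderOf g) 2 :=
    Nat.dvd_gcd (orderOf_dvd_of_pow_eq_one h1) (orderOf_dvd_of_pow_eq_one h2)
  rw [hg'] at h3
  exact orderOf_eq_one_iff.1 (Nat.dvd_one.1 h3)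

theorem mem_pResidual_subtype {X : Type*} [Group X] (Y : Subgroup X)
    (hY : Cfsg.pResidual 2 X ≤ Y) {x : X} (hx : x ∈ Cfsg.pResidual 2 X) :
    (⟨x, hY hx⟩ : Y) ∈ Cfsg.pResidual 2 Y := by
  have key : ∀ x ∈ Cfsg.pResidual 2 X, ∃ h : x ∈ Y, (⟨x, h⟩ : Y) ∈ Cfsg.pResidual 2 Y := by
    intro x hx
    unfold Cfsg.pResidual at hx
    induction hx using Subgroup.closure_induction with
    | mem y hy =>
      have hy' : Nat.Coprime (orderOf y) 2 := hy
      have hyY : y ∈ Y := hY (Subgroup.subset_closure hy)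
      refine ⟨hyY, Subgroup.subset_closure ?_⟩
      show Nat.Coprime (orderOf (⟨y, hyY⟩ : Y)) 2
      rw [Subgroup.orderOf_mk]
      exact hy'
    | one => exact ⟨Y.one_mem, (Cfsg.pResidual 2 Y).one_mem⟩
    | mul a b _ _ ha hb =>
      obtain ⟨ha1, ha2⟩ := ha
      obtain ⟨hb1, hb2⟩ := hb
      exact ⟨Y.mul_mem ha1 hb1, (Cfsg.pResidual 2 Y).mul_mem ha2 hb2⟩
    | inv a _ ha =>
      obtain ⟨ha1, ha2⟩ := ha
      exact ⟨Y.inv_mem ha1, (Cfsg.pResidual 2 Y).inv_mem ha2⟩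
  obtain ⟨_, h2⟩ := key x hx
  exact h2

theorem cosetSign_ker_index {X : Type*} [Group X] [Finite X] (T : Subgroup X) (u : X)
    (hu : cosetSign T u = -1) : (cosetSign T).ker.index = 2 := by
  rw [Subgroup.index_ker]
  have htop : (cosetSign T).range = ⊤ := by
    rw [eq_top_iff]
    intro x _
    rcases Int.units_eq_one_or x with h | h
    · rw [h]; exact one_mem _
    · rw [h, ← hu]; exact ⟨u, rfl⟩
  rw [htop, Subgroup.card_top, Nat.card_eq_fintype_card, Fintype.card_units_int]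

theorem even_of_pow_mem_ker {X : Type*} [Group X] (f : X →* ℤˣ) (u : X) (hu : f u = -1)
    (j : ℕ) (hj : u ^ j ∈ f.ker) : Even j := by
  rw [MonoidHom.mem_ker, map_pow, hu] at hj
  by_contra hodd
  rw [Nat.not_even_iff_odd] at hodd
  rw [Odd.neg_one_pow hodd] at hj
  exact absurd hj (by decide)

/-- Iterated sign transfer: `⟨u⟩ ∩ O²(X) = 1`. -/
theorem pow_eq_one_of_mem_pResidual : ∀ (k : ℕ), 1 ≤ k → ∀ (X : Type u) [Group X] [Finite X]
    (T : Subgroup X) (u : X) (m : ℕ), u ^ (2 ^ k) = 1 →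
    (∀ g : X, g⁻¹ * u ^ (2 ^ (k - 1)) * g ∉ T) → T.index = 2 ^ k * m → Odd m →
    T ≤ Cfsg.pResidual 2 X → ∀ j : ℕ, u ^ j ∈ Cfsg.pResidual 2 X → u ^ j = 1 := by
  intro k hk
  induction k, hk using Nat.le_induction with
  | base =>
    intro X _ _ T u m hu hconj hidx hm _ j hj
    have hs := cosetSign_eq_neg_one T u 1 m le_rfl hu hconj hidx hm
    obtain ⟨j', rfl⟩ := even_of_pow_mem_ker _ u hs j (pResidual_le_ker_units _ hj)
    rw [← two_mul, pow_mul]
    have h2 : u ^ 2 = 1 := by simpa using hu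
    rw [h2, one_pow]
  | succ k hk ih =>
    intro X _ _ T u m hu hconj hidx hm hT j hj
    have hs := cosetSign_eq_neg_one T u (k + 1) m (by omega) hu hconj hidx hm
    set Y : Subgroup X := (cosetSign T).ker with hYdef
    have hRY : Cfsg.pResidual 2 X ≤ Y := pResidual_le_ker_units _
    obtain ⟨j', rfl⟩ := even_of_pow_mem_ker _ u hs j (hRY hj)
    have hu2 : u ^ 2 ∈ Y := by
      rw [hYdef, MonoidHom.mem_ker, map_pow, hs]; simp
    have hYidx : Y.index = 2 := cosetSign_ker_index T u hs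
    have hTY : T ≤ Y := hT.trans hRY
    have hidx' : (T.subgroupOf Y).index = 2 ^ k * m := by
      have h1 := Subgroup.relIndex_mul_index hTY
      rw [hYidx, hidx, pow_succ] at h1
      have h2 : T.relIndex Y * 2 = 2 ^ k * m * 2 := by rw [h1]; ring
      exact Nat.eq_of_mul_eq_mul_right (by norm_num) h2
    have hT' : T.subgroupOf Y ≤ Cfsg.pResidual 2 Y := by
      intro t ht
      exact mem_pResidual_subtype Y hRY (hT (mem_subgroupOf.1 ht))
    have hpow : ∀ i : ℕ, ((⟨u ^ 2, hu2⟩ : Y) ^ i : Y) = ⟨(u ^ 2) ^ i, Y.pow_mem hu2 i⟩ :=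
      fun i => rfl
    have hu' : (⟨u ^ 2, hu2⟩ : Y) ^ (2 ^ k) = 1 := by
      rw [hpow]
      apply Subtype.ext
      show (u ^ 2) ^ (2 ^ k) = 1
      rw [← pow_mul, ← pow_succ']
      exact hu
    have hconj' : ∀ g : Y, g⁻¹ * (⟨u ^ 2, hu2⟩ : Y) ^ (2 ^ (k - 1)) * g ∉ T.subgroupOf Y := by
      intro g hg
      rw [mem_subgroupOf] at hg
      apply hconj (g : X)
      have e : (u ^ 2) ^ (2 ^ (k - 1)) = u ^ (2 ^ (k + 1 - 1)) := by
        rw [← pow_mul, ← pow_succ', Nat.sub_add_cancel hk, Nat.add_sub_cancel]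
      rw [← e]
      exact hg
    have hj2 : u ^ (j' + j') = (u ^ 2) ^ j' := by rw [← two_mul, pow_mul]
    rw [hj2] at hj ⊢
    have h3 := ih Y (T.subgroupOf Y) ⟨u ^ 2, hu2⟩ m hu' hconj' hidx' hm hT' j'
      (by rw [hpow]; exact mem_pResidual_subtype Y hRY hj)
    rw [hpow] at h3
    exact congrArg Subtype.val h3

end Cfsg.Agent.Helper32
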