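import Mathlib.Tactic
import Mathlib.GroupTheory.Sylow
import Cfsg.Agent.Helper32.HallHigman

set_option autoImplicit false

/-!
# The trace map on fixed points of an abelian `p`-subgroup

If `V` is an abelian `p`-subgroup normalized by `N` and `S ≤ N` has index prime to `p` in `N`, then
`C_V(N)` is a direct factor of `C_V(S)`.
-/

namespace Cfsg.Agent.Helper32

open scoped IsMulCommutative in
theorem exists_complement_of_trace {G : Type*} [Group G] [Finite G] {p : ℕ} [hp : Fact p.Prime]
    (N S V : Subgroup G) [IsMulCommutative V] (hSN : S ≤ N) (hidx : ¬ p ∣ S.relIndex N)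
    (hVp : IsPGroup p V) (hNV : ∀ n ∈ N, ∀ v ∈ V, n * v * n⁻¹ ∈ V) :
    ∃ K : Subgroup G, K ≤ V ⊓ Subgroup.centralizer (S : Set G) ∧
      (V ⊓ Subgroup.centralizer (N : Set G)) ⊓ K = ⊥ ∧
      (V ⊓ Subgroup.centralizer (N : Set G)) ⊔ K = V ⊓ Subgroup.centralizer (S : Set G) := by
  classical
  let cj : N → (V →* V) := fun n =>
    { toFun := fun v => ⟨n * v * n⁻¹, hNV n n.2 v v.2⟩
      map_one' := by ext; simp
      map_mul' := fun a b => by ext; simp }
  have hcj : ∀ (n : N) (v : V), ((cj n v : V) : G) = n * v * (n : G)⁻¹ := fun n v => rfl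
  letI : Fintype (N ⧸ S.subgroupOf N) := Fintype.ofFinite _
  let τ : V →* V := ∏ q : N ⧸ S.subgroupOf N, cj q.out
  have hτ : ∀ v : V, τ v = ∏ q : N ⧸ S.subgroupOf N, cj q.out v := fun v =>
    MonoidHom.finset_prod_apply _ _ _
  have hout : ∀ v : V, (v : G) ∈ Subgroup.centralizer (S : Set G) → ∀ n : N,
      cj (QuotientGroup.mk n : N ⧸ S.subgroupOf N).out v = cj n v := by
    intro v hv n
    obtain ⟨h, hh⟩ := QuotientGroup.mk_out_eq_mul (S.subgroupOf N) n
    rw [hh]
    apply Subtype.ext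
    rw [hcj, hcj]
    have h1 : ((h : N) : G) ∈ S := Subgroup.mem_subgroupOf.1 h.2
    have h2 := Subgroup.mem_centralizer_iff.1 hv _ h1
    have e : ((n * (h : N) : N) : G) = (n : G) * ((h : N) : G) := rfl
    rw [e]
    calc (n : G) * ((h : N) : G) * (v : G) * ((n : G) * ((h : N) : G))⁻¹
        = (n : G) * (((h : N) : G) * (v : G)) * ((h : N) : G)⁻¹ * (n : G)⁻¹ := by group
      _ = (n : G) * ((v : G) * ((h : N) : G)) * ((h : N) : G)⁻¹ * (n : G)⁻¹ := by rw [h2]
      _ = (n : G) * (v : G) * (n : G)⁻¹ := by group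
  have hfix : ∀ v : V, (v : G) ∈ Subgroup.centralizer (S : Set G) → ∀ n : N,
      cj n (τ v) = τ v := by
    intro v hv n
    rw [hτ, map_prod]
    have h1 : ∀ q : N ⧸ S.subgroupOf N, cj n (cj q.out v) = cj (n • q).out v := by
      intro q
      have h2 : n • q = (QuotientGroup.mk (n * q.out) : N ⧸ S.subgroupOf N) := by
        conv_lhs => rw [← QuotientGroup.out_eq' q]
        rfl
      rw [h2, hout v hv]
      apply Subtype.ext
      rw [hcj, hcj, hcj]
      have e : ((n * q.out : N) : G) = (n : G) * ((q.out : N) : G) := rfl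
      rw [e]
      group
    simp_rw [h1]
    exact Fintype.prod_equiv (MulAction.toPerm n) _ _ (fun q => rfl)
  set m : ℕ := Fintype.card (N ⧸ S.subgroupOf N) with hm
  have hmp : ¬ p ∣ m := by
    have h1 : S.relIndex N = m := by
      rw [hm, ← Nat.card_eq_fintype_card]
      rfl
    rwa [h1] at hidx
  have hpow : ∀ w : V, (w : G) ∈ Subgroup.centralizer (N : Set G) → τ w = w ^ m := by
    intro w hw
    rw [hτ]
    have h1 : ∀ q : N ⧸ S.subgroupOf N, cj q.out w = w := by
      intro q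
      apply Subtype.ext
      rw [hcj]
      have h2 := Subgroup.mem_centralizer_iff.1 hw _ (q.out : N).2
      calc ((q.out : N) : G) * (w : G) * ((q.out : N) : G)⁻¹
          = (w : G) * ((q.out : N) : G) * ((q.out : N) : G)⁻¹ := by rw [h2]
        _ = (w : G) := by group
    simp_rw [h1]
    rw [Finset.prod_const, Finset.card_univ]
  have hCle : Subgroup.centralizer (N : Set G) ≤ Subgroup.centralizer (S : Set G) :=
    Subgroup.centralizer_le hSN
  refine ⟨(τ.ker.map V.subtype) ⊓ Subgroup.centralizer (S : Set G), ?_, ?_, ?_⟩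
  · intro x hx
    obtain ⟨⟨v, -, rfl⟩, hx2⟩ := Subgroup.mem_inf.1 hx
    exact Subgroup.mem_inf.2 ⟨v.2, hx2⟩
  · rw [eq_bot_iff]
    intro x hx
    obtain ⟨hx1, hx2⟩ := Subgroup.mem_inf.1 hx
    obtain ⟨-, hxN⟩ := Subgroup.mem_inf.1 hx1
    obtain ⟨⟨v, hv, rfl⟩, -⟩ := Subgroup.mem_inf.1 hx2
    have h1 : τ v = 1 := hv
    rw [hpow v hxN] at h1
    obtain ⟨k, hk⟩ := hVp v
    have h2 : v = 1 := eq_one_of_pow_coprime h1 hk
      (Nat.Coprime.pow_right k ((Nat.Prime.coprime_iff_not_dvd hp.out).2 hmp).symm)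
    rw [Subgroup.mem_bot, h2]
    rfl
  · apply le_antisymm
    · apply sup_le
      · exact inf_le_inf_left V hCle
      · intro x hx
        obtain ⟨⟨v, -, rfl⟩, hx2⟩ := Subgroup.mem_inf.1 hx
        exact Subgroup.mem_inf.2 ⟨v.2, hx2⟩
    · intro z hz
      obtain ⟨hzV, hzS⟩ := Subgroup.mem_inf.1 hz
      set zV : V := ⟨z, hzV⟩ with hzVdef
      set t : V := τ zV with ht
      have htN : (t : G) ∈ Subgroup.centralizer (N : Set G) := by
        rw [Subgroup.mem_centralizer_iff]
        intro n hn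
        have h1 := hfix zV hzS ⟨n, hn⟩
        have h2 : n * (t : G) * n⁻¹ = (t : G) := congrArg Subtype.val h1
        calc n * (t : G) = n * (t : G) * n⁻¹ * n := by group
          _ = (t : G) * n := by rw [h2]
      obtain ⟨k, hk⟩ := hVp t
      have hcop : Nat.Coprime m (p ^ k) :=
        Nat.Coprime.pow_right k ((Nat.Prime.coprime_iff_not_dvd hp.out).2 hmp).symm
      have hbez : (m : ℤ) * Nat.gcdA m (p ^ k) + ((p ^ k : ℕ) : ℤ) * Nat.gcdB m (p ^ k) = 1 := by
        have := Nat.gcd_eq_gcd_ab m (p ^ k)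
        rw [hcop] at this
        exact_mod_cast this.symm
      set a : ℤ := Nat.gcdA m (p ^ k) with ha
      set b : ℤ := Nat.gcdB m (p ^ k) with hb
      set w : V := t ^ a with hw
      have hwN : (w : G) ∈ Subgroup.centralizer (N : Set G) := by
        have : ((t ^ a : V) : G) = (t : G) ^ a := rfl
        rw [hw, this]
        exact Subgroup.zpow_mem _ htN a
      have hτw : τ w = t := by
        rw [hpow w hwN, hw]
        have h1 : t = (t ^ a) ^ m * (t ^ (p ^ k)) ^ b := by
          rw [← zpow_natCast (t ^ a) m, ← zpow_natCast t (p ^ k), ← zpow_mul, ← zpow_mul,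
            ← zpow_add, mul_comm a, hbez, zpow_one]
        rw [hk, one_zpow, mul_one] at h1
        exact h1.symm
      have hy : τ (zV * w⁻¹) = 1 := by
        rw [map_mul, map_inv, hτw]
        exact mul_inv_cancel t
      have hyS : ((zV * w⁻¹ : V) : G) ∈ Subgroup.centralizer (S : Set G) := by
        have : ((zV * w⁻¹ : V) : G) = z * (w : G)⁻¹ := rfl
        rw [this]
        exact mul_mem hzS (inv_mem (hCle hwN))
      have hz2 : z = (w : G) * ((zV * w⁻¹ : V) : G) := by
        have h3 : zV = w * (zV * w⁻¹) := by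
          rw [mul_comm zV, mul_inv_cancel_left]
        exact congrArg Subtype.val h3
      rw [hz2]
      exact Subgroup.mul_mem_sup (Subgroup.mem_inf.2 ⟨w.2, hwN⟩)
        (Subgroup.mem_inf.2 ⟨⟨zV * w⁻¹, hy, rfl⟩, hyS⟩)

end Cfsg.Agent.Helper32
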